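import Cfsg.Agent.Forms.Symplectic

/-!
The symplectic group in dimension four: bases, entries of conjugates, and absorbing unipotent factors into the
class of a regular element (owner: helper17).
-/

set_option autoImplicit false

namespace Cfsg.Agent.PSp4Cover

open Matrix

variable {F : Type*} [Field F]

/-- `g` is a product of two conjugates of `x`. -/
def Prod2 {G : Type*} [Group G] (x g : G) : Prop := ∃ u v : G, g = (u * x * u⁻¹) * (v * x * v⁻¹)

theorem Prod2.conj {G : Type*} [Group G] {x g : G} (h : Prod2 x g) (k : G) : Prod2 x (k * g * k⁻¹) := by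
  obtain ⟨u, v, rfl⟩ := h
  exact ⟨k * u, k * v, by group⟩

theorem Prod2.of_conj {G : Type*} [Group G] {x g k : G} (h : Prod2 x (k⁻¹ * g * k)) : Prod2 x g := by
  simpa [mul_assoc] using h.conj k

theorem Prod2.map {G H : Type*} [Group G] [Group H] (f : G →* H) {x g : G} (h : Prod2 x g) :
    Prod2 (f x) (f g) := by
  obtain ⟨u, v, rfl⟩ := h
  exact ⟨f u, f v, by simp only [map_mul, map_inv]⟩

/-- A unipotent factor is absorbed by a conjugation when `x` centralizes nothing of `U`. -/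
theorem absorb {G : Type*} [Group G] [Finite G] (U : Subgroup G) {x : G} (hn : ∀ u ∈ U, x * u * x⁻¹ ∈ U)
    (hc : ∀ u ∈ U, Commute u x → u = 1) {u : G} (hu : u ∈ U) : ∃ w ∈ U, w * x * w⁻¹ = u * x := by
  let φ : U → U := fun w => ⟨w.1 * (x * w.1⁻¹ * x⁻¹), mul_mem w.2 (hn _ (inv_mem w.2))⟩
  have hinj : Function.Injective φ := by
    intro a b e
    have e1 : (a : G) * (x * (a : G)⁻¹ * x⁻¹) = b * (x * (b : G)⁻¹ * x⁻¹) := congrArg Subtype.val e
    have e2 := hc ((b : G)⁻¹ * a) (mul_mem (inv_mem b.2) a.2) (by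
      show (b : G)⁻¹ * a * x = x * ((b : G)⁻¹ * a)
      have e3 := congrArg (fun z => (b : G)⁻¹ * z * x * a) e1
      simpa [mul_assoc] using e3)
    exact Subtype.ext (inv_mul_eq_one.1 e2).symm
  obtain ⟨w, hw⟩ := Finite.surjective_of_injective hinj ⟨u, hu⟩
  refine ⟨w.1, w.2, ?_⟩
  have e : (w : G) * (x * (w : G)⁻¹ * x⁻¹) = u := congrArg Subtype.val hw
  rw [← e]
  group

/-- A product `v * x₁ * x₂ * u` of two conjugates of `x` with unipotent factors. -/
theorem prod2_of_ldu {G : Type*} [Group G] [Finite G] (U V : Subgroup G) {x : G}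
    (hnU : ∀ u ∈ U, x * u * x⁻¹ ∈ U) (hcU : ∀ u ∈ U, Commute u x → u = 1)
    (hnV : ∀ u ∈ V, x * u * x⁻¹ ∈ V) (hcV : ∀ u ∈ V, Commute u x → u = 1)
    {l₁ l₂ v u : G} (h₁ : ∀ w ∈ V, l₁⁻¹ * w * l₁ ∈ V) (h₂ : ∀ w ∈ U, l₂⁻¹ * w * l₂ ∈ U)
    (hv : v ∈ V) (hu : u ∈ U) : Prod2 x (v * ((l₁ * x * l₁⁻¹) * (l₂ * x * l₂⁻¹)) * u) := by
  obtain ⟨a, -, ha⟩ := absorb V hnV hcV (h₁ v hv)
  obtain ⟨b, -, hb⟩ := absorb U hnU hcU (hnU _ (h₂ u hu))
  refine ⟨l₁ * a, l₂ * b, ?_⟩
  rw [show l₁ * a * x * (l₁ * a)⁻¹ = l₁ * (a * x * a⁻¹) * l₁⁻¹ by group,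
    show l₂ * b * x * (l₂ * b)⁻¹ = l₂ * (b * x * b⁻¹) * l₂⁻¹ by group, ha, hb]
  group

local notation "Ix" => Fin 2 ⊕ Fin 2
local notation "Sp4" => Matrix.symplecticGroup (Fin 2) F

/-- The alternating form, normalised so that `e`, `f` pair to one. -/
def om (x y : Ix → F) : F :=
  x (.inl 0) * y (.inr 0) - x (.inr 0) * y (.inl 0) + (x (.inl 1) * y (.inr 1) - x (.inr 1) * y (.inl 1))

theorem om_eq (x y : Ix → F) : om x y = -Cfsg.sympForm 2 F x y := by
  simp [om, Forms.sympForm_apply, Fin.sum_univ_two]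
  ring

theorem om_mulVec (g : Sp4) (x y : Ix → F) : om (g.1 *ᵥ x) (g.1 *ᵥ y) = om x y := by
  rw [om_eq, om_eq, Forms.mem_symplecticGroup_iff_sympForm.1 g.2]

theorem om_inv (g : Sp4) (x y : Ix → F) : om (g.1 *ᵥ x) y = om x ((g⁻¹).1 *ᵥ y) := by
  rw [← om_mulVec g x, mulVec_mulVec, ← Submonoid.coe_mul, mul_inv_cancel, Submonoid.coe_one, one_mulVec]

theorem om_self (x : Ix → F) : om x x = 0 := by simp only [om]; ring

theorem om_neg_swap (x y : Ix → F) : om x y = -om y x := by simp only [om]; ring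

theorem om_add_left (x y z : Ix → F) : om (x + y) z = om x z + om y z := by simp only [om, Pi.add_apply]; ring

theorem om_add_right (x y z : Ix → F) : om x (y + z) = om x y + om x z := by simp only [om, Pi.add_apply]; ring

theorem om_sub_left (x y z : Ix → F) : om (x - y) z = om x z - om y z := by simp only [om, Pi.sub_apply]; ring

theorem om_sub_right (x y z : Ix → F) : om x (y - z) = om x y - om x z := by simp only [om, Pi.sub_apply]; ring

theorem om_smul_left (c : F) (x y : Ix → F) : om (c • x) y = c * om x y := by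
  simp only [om, Pi.smul_apply, smul_eq_mul]; ring

theorem om_smul_right (c : F) (x y : Ix → F) : om x (c • y) = c * om x y := by
  simp only [om, Pi.smul_apply, smul_eq_mul]; ring

theorem om_zero_left (y : Ix → F) : om 0 y = 0 := by simp [om]

theorem om_zero_right (y : Ix → F) : om y 0 = 0 := by simp [om]

theorem exists_om_ne {y : Ix → F} (hy : y ≠ 0) : ∃ z, om z y ≠ 0 := by
  obtain ⟨i, hi⟩ := Function.ne_iff.1 hy
  rcases i with i | i <;> fin_cases i
  · exact ⟨Pi.single (.inr 0) 1, by simpa [om] using hi⟩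
  · exact ⟨Pi.single (.inr 1) 1, by simpa [om] using hi⟩
  · exact ⟨Pi.single (.inl 0) 1, by simpa [om] using hi⟩
  · exact ⟨Pi.single (.inl 1) 1, by simpa [om] using hi⟩

/-- A vector with prescribed products against two independent vectors. -/
theorem exists_dual {a b : Ix → F} (hb : b ≠ 0) (hab : ∀ c : F, a ≠ c • b) :
    ∃ v, om v a = 1 ∧ om v b = 0 := by
  obtain ⟨z, hz⟩ := exists_om_ne hb
  obtain ⟨y, hy⟩ := exists_om_ne (y := a - (om z a / om z b) • b) (sub_ne_zero.2 (hab _))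
  rw [om_sub_right, om_smul_right] at hy
  set y' := y - (om y b / om z b) • z
  have h1 : om y' b = 0 := by
    simp only [y', om_sub_left, om_smul_left]
    rw [div_mul_cancel₀ _ hz, sub_self]
  have h2 : om y' a ≠ 0 := by
    simp only [y', om_sub_left, om_smul_left]
    intro h
    apply hy
    field_simp at h ⊢
    linear_combination h
  exact ⟨(om y' a)⁻¹ • y', by rw [om_smul_left, inv_mul_cancel₀ h2], by rw [om_smul_left, h1, mul_zero]⟩

/-- Completing a pair to a basis. -/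
theorem exists_completion {v f : Ix → F} (h : om v f = 1) :
    ∃ e e', om e e' = 1 ∧ om v e = 0 ∧ om v e' = 0 ∧ om f e = 0 ∧ om f e' = 0 := by
  let π : (Ix → F) → (Ix → F) := fun y => y - om y f • v - om v y • f
  have hfv : om f v = -1 := by rw [om_neg_swap, h]
  have hπ : ∀ y, om v (π y) = 0 ∧ om f (π y) = 0 := fun y => by
    simp only [π, om_sub_right, om_smul_right, om_self, h, hfv]
    constructor
    · ring
    · rw [om_neg_swap f y]; ring
  obtain ⟨e, he, hev, hef⟩ : ∃ e, e ≠ 0 ∧ om v e = 0 ∧ om f e = 0 := by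
    by_contra hne
    have hz : ∀ y, π y = 0 := fun y => by
      by_contra hy
      exact hne ⟨_, hy, (hπ y).1, (hπ y).2⟩
    -- then every vector lies in the plane of `v` and `f`
    have hid : ∀ i j : Ix, (if j = i then (1 : F) else 0) =
        om (Pi.single i 1) f * v j + om v (Pi.single i 1) * f j := by
      intro i j
      have := congrFun (hz (Pi.single i 1)) j
      simp only [π, Pi.sub_apply, Pi.smul_apply, smul_eq_mul, Pi.zero_apply, Pi.single_apply] at this
      linear_combination this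
    have a1 := hid (.inl 0) (.inl 0)
    have a2 := hid (.inl 1) (.inl 1)
    have a3 := hid (.inl 0) (.inl 1)
    have a4 := hid (.inl 1) (.inl 0)
    simp [om] at a1 a2 a3 a4
    apply one_ne_zero (α := F)
    have hh := h
    simp only [om] at hh
    grind
  obtain ⟨z, hz⟩ := exists_om_ne he
  have hz' : om e (π z) = om e z := by
    simp only [π, om_sub_right, om_smul_right, om_neg_swap e v, hev, om_neg_swap e f, hef]
    ring
  have hne : om e z ≠ 0 := by rw [om_neg_swap]; exact neg_ne_zero.2 hz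
  refine ⟨e, (om e z)⁻¹ • π z, ?_, hev, ?_, hef, ?_⟩
  · rw [om_smul_right, hz', inv_mul_cancel₀ hne]
  · rw [om_smul_right, (hπ z).1, mul_zero]
  · rw [om_smul_right, (hπ z).2, mul_zero]

/-- The matrix with the given columns. -/
def colMat (v e f e' : Ix → F) : Matrix Ix Ix F :=
  Matrix.of fun i j => Sum.elim (fun k : Fin 2 => ![v, e] k i) (fun k : Fin 2 => ![f, e'] k i) j

theorem colMat_mem {v e f e' : Ix → F} (h1 : om v f = 1) (h2 : om e e' = 1) (h3 : om v e = 0)
    (h4 : om v e' = 0) (h5 : om f e = 0) (h6 : om f e' = 0) : colMat v e f e' ∈ Sp4 := by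
  rw [Forms.mem_symplecticGroup_iff_sympForm]
  intro x y
  have key : ∀ x : Ix → F, colMat v e f e' *ᵥ x =
      x (.inl 0) • v + x (.inl 1) • e + x (.inr 0) • f + x (.inr 1) • e' := by
    intro x
    ext i
    simp [colMat, mulVec, dotProduct, Fintype.sum_sum_type, Fin.sum_univ_two]
    ring
  have e0 : om (colMat v e f e' *ᵥ x) (colMat v e f e' *ᵥ y) = om x y := by
    simp only [key, om_add_left, om_add_right, om_smul_left, om_smul_right, om_self, h1, h2, h3, h4, h5, h6,
      om_neg_swap f v, om_neg_swap e v, om_neg_swap e' v, om_neg_swap e f, om_neg_swap e' f, om_neg_swap e' e]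
    simp only [om]
    ring
  rwa [om_eq, om_eq, neg_inj] at e0

/-- The columns of the conjugate by the matrix of a basis are the coordinates of the images. -/
theorem exists_basis_conj (g : Sp4) {v e f e' : Ix → F} (h1 : om v f = 1) (h2 : om e e' = 1) (h3 : om v e = 0)
    (h4 : om v e' = 0) (h5 : om f e = 0) (h6 : om f e' = 0) :
    ∃ k : Sp4, ∀ (i : Ix) (k₀ : Fin 2),
      ((k⁻¹ * g * k).1 i (.inl k₀) = Sum.elim (fun l : Fin 2 => om (g.1 *ᵥ ![v, e] k₀) (![f, e'] l))
        (fun l : Fin 2 => om (![v, e] l) (g.1 *ᵥ ![v, e] k₀)) i) ∧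
      ((k⁻¹ * g * k).1 i (.inr k₀) = Sum.elim (fun l : Fin 2 => om (g.1 *ᵥ ![f, e'] k₀) (![f, e'] l))
        (fun l : Fin 2 => om (![v, e] l) (g.1 *ᵥ ![f, e'] k₀)) i) := by
  let k : Sp4 := ⟨_, colMat_mem h1 h2 h3 h4 h5 h6⟩
  refine ⟨k, fun i k₀ => ?_⟩
  have hcol : ∀ j, k.1 *ᵥ Pi.single j 1 =
      Sum.elim (fun l : Fin 2 => ![v, e] l) (fun l : Fin 2 => ![f, e'] l) j := by
    intro j
    ext r
    rw [mulVec_single_one]
    rcases j with j | j <;> rfl
  have hkey : ∀ (r : Ix) (j : Ix), (k⁻¹ * g * k).1 r j = ((k⁻¹).1 *ᵥ (g.1 *ᵥ (k.1 *ᵥ Pi.single j 1))) r := by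
    intro r j
    rw [mulVec_mulVec, mulVec_mulVec, mulVec_single_one, Submonoid.coe_mul, Submonoid.coe_mul]
    rfl
  have hco : ∀ y : Ix → F, ∀ r : Ix, ((k⁻¹).1 *ᵥ y) r =
      Sum.elim (fun l : Fin 2 => om y (![f, e'] l)) (fun l : Fin 2 => om (![v, e] l) y) r := by
    intro y r
    set z := (k⁻¹).1 *ᵥ y
    have hy : y = k.1 *ᵥ z := by
      rw [mulVec_mulVec, ← Submonoid.coe_mul, mul_inv_cancel, Submonoid.coe_one, one_mulVec]
    rcases r with l | l
    · have : ![f, e'] l = k.1 *ᵥ Pi.single (.inr l) 1 := by rw [hcol]; rfl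
      simp only [Sum.elim_inl]
      rw [hy, this, om_mulVec]
      fin_cases l <;> simp [om]
    · have : ![v, e] l = k.1 *ᵥ Pi.single (.inl l) 1 := by rw [hcol]; rfl
      simp only [Sum.elim_inr]
      rw [hy, this, om_mulVec]
      fin_cases l <;> simp [om]
  constructor
  · rw [hkey, hco, hcol]; rfl
  · rw [hkey, hco, hcol]; rfl

end Cfsg.Agent.PSp4Cover
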