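import Cfsg.Agent.PSp4Cover.Odd

/-!
The covering class in characteristic two: the Levi subgroup of the stabilizer of a point (owner: helper17).
-/

set_option autoImplicit false

namespace Cfsg.Agent.PSp4Cover

open Matrix

variable {F : Type*} [Field F]

local notation "Ix" => Fin 2 ⊕ Fin 2
local notation "Sp4" => Matrix.symplecticGroup (Fin 2) F
local notation "M2" => Matrix (Fin 2) (Fin 2) F
local notation "SL2" => Matrix.SpecialLinearGroup (Fin 2) F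

/-- A standard basis vector. -/
def bE (i : Fin 2 ⊕ Fin 2) : Fin 2 ⊕ Fin 2 → F := Pi.single i 1

theorem sl_mul (A B : SL2) : (A * B).1 = A.1 * B.1 := rfl

theorem sl_inv (A : SL2) : (A⁻¹).1 = A.1.adjugate := rfl

theorem sl_one : (1 : SL2).1 = 1 := rfl

/-- The matrix of a Levi element of a point stabilizer. -/
def levMat (a : Fˣ) (A : M2) : Matrix Ix Ix F :=
  fromBlocks !![(a : F), 0; 0, A 0 0] !![0, 0; 0, A 0 1] !![0, 0; 0, A 1 0] !![((a⁻¹ : Fˣ) : F), 0; 0, A 1 1]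

theorem levMat_mem (a : Fˣ) (A : SL2) : levMat a A.1 ∈ Sp4 := by
  have hA := A.2
  rw [det_fin_two] at hA
  rw [levMat, SymplecticGroup.fromBlocks_mem_iff]
  refine ⟨?_, ?_, ?_⟩ <;> ext i j <;> fin_cases i <;> fin_cases j <;>
    simp [mul_apply, Fin.sum_univ_two] <;> first | linear_combination hA | ring

/-- The Levi subgroup of a point stabilizer. -/
def lev : Fˣ × SL2 →* Sp4 where
  toFun x := ⟨_, levMat_mem x.1 x.2⟩
  map_one' := by
    apply Subtype.ext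
    ext (i | i) (j | j) <;> fin_cases i <;> fin_cases j <;> simp [levMat, one_apply]
  map_mul' x y := by
    apply Subtype.ext
    ext (i | i) (j | j) <;> fin_cases i <;> fin_cases j <;>
      simp [levMat, mul_apply, Fintype.sum_sum_type, Fin.sum_univ_two] <;> ring

theorem lev_l0 (a : Fˣ) (A : SL2) : (lev (a, A)).1 *ᵥ bE (.inl 0) = (a : F) • bE (F := F) (.inl 0) := by
  rw [bE, mulVec_single_one]
  ext (i | i) <;> fin_cases i <;> simp [lev, levMat]

theorem lev_r0 (a : Fˣ) (A : SL2) :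
    (lev (a, A)).1 *ᵥ bE (.inr 0) = ((a⁻¹ : Fˣ) : F) • bE (F := F) (.inr 0) := by
  rw [bE, mulVec_single_one]
  ext (i | i) <;> fin_cases i <;> simp [lev, levMat]

theorem lev_l1 (a : Fˣ) (A : SL2) :
    (lev (a, A)).1 *ᵥ bE (.inl 1) = A.1 0 0 • bE (F := F) (.inl 1) + A.1 1 0 • bE (.inr 1) := by
  rw [bE, bE, mulVec_single_one]
  ext (i | i) <;> fin_cases i <;> simp [lev, levMat]

theorem lev_r1 (a : Fˣ) (A : SL2) :
    (lev (a, A)).1 *ᵥ bE (.inr 1) = A.1 0 1 • bE (F := F) (.inl 1) + A.1 1 1 • bE (.inr 1) := by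
  rw [bE, bE, mulVec_single_one]
  ext (i | i) <;> fin_cases i <;> simp [lev, levMat]

/-- The unipotent radical of the stabilizer of a basis vector. -/
def radP (o : Fin 2 ⊕ Fin 2) : Subgroup Sp4 where
  carrier := {g | g.1 *ᵥ bE o = bE o ∧ (∃ c : F, g.1 *ᵥ bE (.inl 1) = bE (.inl 1) + c • bE o) ∧
    ∃ c : F, g.1 *ᵥ bE (.inr 1) = bE (.inr 1) + c • bE o}
  one_mem' := ⟨by simp, ⟨0, by simp⟩, 0, by simp⟩
  mul_mem' := by
    rintro g g' ⟨h0, ⟨c, hc⟩, d, hd⟩ ⟨h0', ⟨c', hc'⟩, d', hd'⟩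
    refine ⟨?_, ⟨c + c', ?_⟩, d + d', ?_⟩
    · rw [Submonoid.coe_mul, ← mulVec_mulVec, h0', h0]
    · rw [Submonoid.coe_mul, ← mulVec_mulVec, hc', mulVec_add, mulVec_smul, hc, h0, add_smul]; abel
    · rw [Submonoid.coe_mul, ← mulVec_mulVec, hd', mulVec_add, mulVec_smul, hd, h0, add_smul]; abel
  inv_mem' := by
    rintro g ⟨h0, ⟨c, hc⟩, d, hd⟩
    have e : (g⁻¹).1 *ᵥ bE o = bE o := by conv_lhs => rw [← h0, inv_mul_vec]
    refine ⟨e, ⟨-c, ?_⟩, -d, ?_⟩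
    · have h := congrArg ((g⁻¹).1 *ᵥ ·) hc
      simp only [inv_mul_vec, mulVec_add, mulVec_smul, e] at h
      rw [neg_smul, ← sub_eq_add_neg, eq_sub_iff_add_eq]
      exact h.symm
    · have h := congrArg ((g⁻¹).1 *ᵥ ·) hd
      simp only [inv_mul_vec, mulVec_add, mulVec_smul, e] at h
      rw [neg_smul, ← sub_eq_add_neg, eq_sub_iff_add_eq]
      exact h.symm

theorem radP_normal {o : Ix} (ho : ∀ x : Fˣ × SL2, ∃ s : F, (lev x).1 *ᵥ bE o = s • bE o)
    (x : Fˣ × SL2) : ∀ u ∈ radP (F := F) o, lev x * u * (lev x)⁻¹ ∈ radP (F := F) o := by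
  rintro u ⟨h0, ⟨c, hc⟩, d, hd⟩
  obtain ⟨a, A⟩ := x
  obtain ⟨s, hs⟩ := ho (a, A)
  obtain ⟨s', hs'⟩ := ho (a, A)⁻¹
  have h2 := inv_mul_vec (lev (a, A)) (bE o)
  rw [← map_inv] at h2 ⊢
  rw [hs, mulVec_smul, hs', smul_smul] at h2
  have key : ∀ i, (i = .inl 1 ∨ i = .inr 1) →
      ∃ e : F, (lev (a, A) * u * lev (a, A)⁻¹).1 *ᵥ bE i = bE i + e • bE o := by
    intro i hi
    obtain ⟨α, β, hi'⟩ : ∃ α β : F, (lev (a, A)⁻¹).1 *ᵥ bE i = α • bE (.inl 1) + β • bE (.inr 1) := by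
      rw [Prod.inv_mk]
      rcases hi with rfl | rfl
      · exact ⟨_, _, lev_l1 _ _⟩
      · exact ⟨_, _, lev_r1 _ _⟩
    refine ⟨(α * c + β * d) * s, ?_⟩
    have h3 := inv_mul_vec (lev (a, A)⁻¹) (bE i)
    rw [← map_inv, inv_inv, hi'] at h3
    rw [Submonoid.coe_mul, Submonoid.coe_mul, ← mulVec_mulVec, ← mulVec_mulVec, hi', mulVec_add, mulVec_smul,
      mulVec_smul, hc, hd, show α • (bE (.inl 1) + c • bE o) + β • (bE (.inr 1) + d • bE o) =
        (α • bE (.inl 1) + β • bE (.inr 1)) + (α * c + β * d) • bE (F := F) o by module,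
      mulVec_add, h3, mulVec_smul, hs, smul_smul]
  refine ⟨?_, key _ (Or.inl rfl), key _ (Or.inr rfl)⟩
  rw [Submonoid.coe_mul, Submonoid.coe_mul, ← mulVec_mulVec, ← mulVec_mulVec, hs', mulVec_smul, h0,
    mulVec_smul, hs, smul_smul, mul_comm]
  exact h2

theorem bE_o_normal : (∀ x : Fˣ × SL2, ∃ s : F, (lev x).1 *ᵥ bE (.inl 0) = s • bE (.inl 0)) ∧
    (∀ x : Fˣ × SL2, ∃ s : F, (lev x).1 *ᵥ bE (.inr 0) = s • bE (.inr 0)) :=
  ⟨fun x => ⟨_, lev_l0 x.1 x.2⟩, fun x => ⟨_, lev_r0 x.1 x.2⟩⟩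

/-- The centralizer in the radical of a regular Levi element. -/
theorem radP_fix {t : F} (hi : Irr2 t 1) {a : Fˣ} {A : SL2} (hA : A.1 = comp2 t 1) {o o' : Ix}
    (hoo : (o = .inl 0 ∧ o' = .inr 0) ∨ (o = .inr 0 ∧ o' = .inl 0)) {s : Fˣ} (hs1 : s ^ 2 ≠ 1)
    (hs : (lev (a, A)).1 *ᵥ bE o = (s : F) • bE o) (hs' : (lev (a, A)).1 *ᵥ bE o' = ((s⁻¹ : Fˣ) : F) • bE o') :
    ∀ u ∈ radP (F := F) o, Commute u (lev (a, A)) → u = 1 := by
  rintro u ⟨h0, ⟨c, hc⟩, d, hd⟩ hcomm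
  have hmat : ∀ y, u.1 *ᵥ ((lev (a, A)).1 *ᵥ y) = (lev (a, A)).1 *ᵥ (u.1 *ᵥ y) := fun y => by
    rw [mulVec_mulVec, mulVec_mulVec, ← Submonoid.coe_mul, ← Submonoid.coe_mul, hcomm.eq]
  have h1 := hmat (bE (.inl 1))
  have h3 := hmat (bE (.inr 1))
  rw [lev_l1, mulVec_add, mulVec_smul, mulVec_smul, hc, hd, mulVec_add, mulVec_smul, lev_l1, hs] at h1
  rw [lev_r1, mulVec_add, mulVec_smul, mulVec_smul, hc, hd, mulVec_add, mulVec_smul, lev_r1, hs] at h3
  have k1 := congrFun h1 o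
  have k3 := congrFun h3 o
  have hcd : c = 0 ∧ d = 0 := by
    rcases hoo with ⟨rfl, rfl⟩ | ⟨rfl, rfl⟩ <;>
    · simp [bE, hA, comp2] at k1 k3
      have hk := hi (s : F)
      have ec : c = 0 := (mul_eq_zero.1 (show ((s : F) * s - t * s + 1) * c = 0 by
        linear_combination (t - s) * k1 - k3)).resolve_left hk
      exact ⟨ec, by rw [ec] at k1; linear_combination k1⟩
  obtain ⟨rfl, rfl⟩ := hcd
  rw [zero_smul, add_zero] at hc hd
  set z := u.1 *ᵥ bE o' with hz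
  have m1 := om_mulVec u (bE o') (bE (.inl 1))
  have m2 := om_mulVec u (bE o') (bE (.inr 1))
  have m3 := om_mulVec u (bE o') (bE o)
  rw [← hz] at m1 m2 m3
  rw [hc] at m1
  rw [hd] at m2
  rw [h0] at m3
  have hzo : z = bE o' + z o • bE o := by
    rcases hoo with ⟨rfl, rfl⟩ | ⟨rfl, rfl⟩ <;>
    · simp [om, bE] at m1 m2 m3
      ext (i | i) <;> fin_cases i <;> simp [bE, m1, m2, m3]
  have h4 := congrFun (hmat (bE o')) o
  rw [hs', mulVec_smul, ← hz, hzo, mulVec_add, mulVec_smul, hs, hs'] at h4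
  have hzero : z o = 0 := by
    have hs0 : (s : F) ≠ 0 := s.ne_zero
    have hs2 : ((s : F) * s - 1) ≠ 0 := fun e => hs1 (Units.ext (by
      rw [Units.val_pow_eq_pow_val, Units.val_one]; linear_combination e))
    rcases hoo with ⟨rfl, rfl⟩ | ⟨rfl, rfl⟩ <;>
    · simp [bE] at h4
      field_simp at h4
      exact (mul_eq_zero.1 (show ((s : F) * s - 1) * z _ = 0 by linear_combination -h4)).resolve_left hs2
  rw [hzero, zero_smul, add_zero] at hzo
  apply Subtype.ext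
  refine Matrix.ext_of_mulVec_single fun i => ?_
  rw [Submonoid.coe_one, one_mulVec]
  show u.1 *ᵥ bE i = bE i
  rcases hoo with ⟨rfl, rfl⟩ | ⟨rfl, rfl⟩ <;> rcases i with i | i <;> fin_cases i
  all_goals first
    | exact h0
    | exact hc
    | exact hd
    | exact hzo

variable [CharP F 2]

theorem neg_two (x : F) : -x = x := CharTwo.neg_eq x

theorem om_comm (x y : Ix → F) : om x y = om y x := by rw [om_neg_swap, neg_two]

/-- The triangular factorisation with a nonzero corner. -/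
theorem exists_ldu_point (g : Sp4) (b : Fˣ) (hb : g.1 (.inl 0) (.inl 0) = b) :
    ∃ v ∈ radP (F := F) (.inr 0), ∃ u ∈ radP (F := F) (.inl 0), ∃ S : SL2, g = v * lev (b, S) * u ∧
      S.1 0 0 = g.1 (.inl 1) (.inl 1) + g.1 (.inl 1) (.inl 0) * g.1 (.inl 0) (.inl 1) / b ∧
      S.1 1 1 = g.1 (.inr 1) (.inr 1) + g.1 (.inr 1) (.inl 0) * g.1 (.inl 0) (.inr 1) / b ∧
      S.1 1 0 = g.1 (.inr 1) (.inl 1) + g.1 (.inr 1) (.inl 0) * g.1 (.inl 0) (.inl 1) / b ∧
      S.1 0 1 = g.1 (.inl 1) (.inr 1) + g.1 (.inl 1) (.inl 0) * g.1 (.inl 0) (.inr 1) / b := by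
  set z := ((b⁻¹ : Fˣ) : F) • (g.1 *ᵥ bE (.inl 0)) with hz
  have hz0 : z (.inl 0) = 1 := by simp [hz, bE, hb]
  set α := z (.inr 1)
  set β := z (.inl 1)
  have hmem : colMat z (bE (.inl 1) + α • bE (.inr 0)) (bE (.inr 0)) (bE (.inr 1) + β • bE (.inr 0)) ∈ Sp4 := by
    refine colMat_mem ?_ ?_ ?_ ?_ ?_ ?_ <;> simp [om, bE, hz0, α, β, CharTwo.add_self_eq_zero]
  set L : Sp4 := ⟨_, hmem⟩ with hL
  have hcols : L.1 *ᵥ bE (.inl 0) = z ∧ L.1 *ᵥ bE (.inl 1) = bE (.inl 1) + α • bE (.inr 0) ∧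
      L.1 *ᵥ bE (.inr 0) = bE (.inr 0) ∧ L.1 *ᵥ bE (.inr 1) = bE (.inr 1) + β • bE (.inr 0) := by
    refine ⟨?_, ?_, ?_, ?_⟩ <;> simp only [hL, bE] <;> rw [mulVec_single_one] <;> rfl
  obtain ⟨c0, c1, c2, c3⟩ := hcols
  have hLmem : L ∈ radP (F := F) (.inr 0) := ⟨c2, ⟨α, c1⟩, β, c3⟩
  set g' := L⁻¹ * g with hg'
  have hg0 : g'.1 *ᵥ bE (.inl 0) = (b : F) • bE (.inl 0) := by
    rw [hg', Submonoid.coe_mul, ← mulVec_mulVec]
    have : g.1 *ᵥ bE (.inl 0) = (b : F) • z := by rw [hz, smul_smul, Units.mul_inv, one_smul]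
    rw [this, mulVec_smul, ← c0, inv_mul_vec]
  set g'' := (lev (b, 1))⁻¹ * g' with hg''
  have hg0' : g''.1 *ᵥ bE (.inl 0) = bE (.inl 0) := by
    rw [hg'', Submonoid.coe_mul, ← mulVec_mulVec, hg0, ← lev_l0 b 1, inv_mul_vec]
  have hr0 : ∀ i : Fin 2 ⊕ Fin 2, i ≠ .inr 0 → (g''.1 *ᵥ bE i) (.inr 0) = 0 := by
    intro i hi
    have := om_mulVec g'' (bE (.inl 0)) (bE i)
    rw [hg0'] at this
    rcases i with i | i <;> fin_cases i <;> simp_all [om, bE]
  -- coordinates of `g''`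
  have hco : ∀ i : Fin 2 ⊕ Fin 2, i ≠ .inr 0 →
      (g''.1 *ᵥ bE i) (.inl 1) = g.1 (.inl 1) i + g.1 (.inl 1) (.inl 0) * g.1 (.inl 0) i / b ∧
      (g''.1 *ᵥ bE i) (.inr 1) = g.1 (.inr 1) i + g.1 (.inr 1) (.inl 0) * g.1 (.inl 0) i / b := by
    intro i hi
    set y := g''.1 *ᵥ bE i
    have e : g.1 *ᵥ bE i = L.1 *ᵥ ((lev (b, 1)).1 *ᵥ y) := by
      simp only [y, mulVec_mulVec, ← Submonoid.coe_mul, hg'', hg']
      congr 2
      group
    have ey : y = y (.inl 0) • bE (.inl 0) + y (.inl 1) • bE (.inl 1) + y (.inr 1) • bE (.inr 1) := by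
      ext (k | k) <;> fin_cases k <;> simp [bE]
      exact hr0 i hi
    rw [ey] at e
    simp only [mulVec_add, mulVec_smul, lev_l0, lev_l1, lev_r1, sl_one, one_apply, if_pos,
      one_smul, c0, c1, c3] at e
    simp [smul_smul, c0, c1, c3] at e
    have k0 := congrFun e (.inl 0)
    have k1 := congrFun e (.inl 1)
    have k3 := congrFun e (.inr 1)
    simp [bE, hz0, mulVec_single_one] at k0 k1 k3
    have hb0 : (b : F) ≠ 0 := b.ne_zero
    have z1 : z (.inl 1) = g.1 (.inl 1) (.inl 0) / b := by simp [hz, bE]; field_simp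
    have z3 : z (.inr 1) = g.1 (.inr 1) (.inl 0) / b := by simp [hz, bE]; field_simp
    rw [z1] at k1
    rw [z3] at k3
    constructor
    · rw [k1, k0, ← CharTwo.sub_eq_add]; field_simp; ring
    · rw [k3, k0, ← CharTwo.sub_eq_add]; field_simp; ring
  set S : M2 := !![(g''.1 *ᵥ bE (.inl 1)) (.inl 1), (g''.1 *ᵥ bE (.inr 1)) (.inl 1);
    (g''.1 *ᵥ bE (.inl 1)) (.inr 1), (g''.1 *ᵥ bE (.inr 1)) (.inr 1)] with hS
  have hSdet : S.det = 1 := by
    have := om_mulVec g'' (bE (.inl 1)) (bE (.inr 1))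
    have r1 := hr0 (.inl 1) (by simp)
    have r3 := hr0 (.inr 1) (by simp)
    simp [om, r1, r3] at this
    simp [hS, det_fin_two]
    simp [bE] at this ⊢
    linear_combination this
  set S' : SL2 := ⟨S, hSdet⟩
  set u := (lev (1, S'))⁻¹ * g'' with hu
  have humem : u ∈ radP (F := F) (.inl 0) := by
    refine ⟨?_, ⟨(g''.1 *ᵥ bE (.inl 1)) (.inl 0), ?_⟩, (g''.1 *ᵥ bE (.inr 1)) (.inl 0), ?_⟩
    · rw [hu, Submonoid.coe_mul, ← mulVec_mulVec, hg0']
      have := inv_mul_vec (lev (1, S')) (bE (.inl 0))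
      rwa [lev_l0, Units.val_one, one_smul] at this
    all_goals
      rw [hu, Submonoid.coe_mul, ← mulVec_mulVec]
      refine (congrArg _ ?_).trans (inv_mul_vec (lev (1, S')) _)
      simp only [mulVec_add, mulVec_smul, lev_l0, lev_l1, lev_r1, Units.val_one, one_smul]
      ext (k | k) <;> fin_cases k <;> simp [S', hS, bE]
      have := hr0 (.inl 1) (by simp)
      have h3 := hr0 (.inr 1) (by simp)
      simp_all [bE]
  refine ⟨L, hLmem, u, humem, S', ?_, (hco (.inl 1) (by simp)).1, (hco (.inr 1) (by simp)).2,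
    (hco (.inl 1) (by simp)).2, (hco (.inr 1) (by simp)).1⟩
  rw [hu, hg'', hg', show lev (b, S') = lev (b, 1) * lev (1, S') by rw [← map_mul]; simp]
  group

/-- `g` has Levi part in the covered set. -/
def GoodBasis (g : Sp4) (b : F) : Prop :=
  ∃ v e f e' : Ix → F, om v f = 1 ∧ om e e' = 1 ∧ om v e = 0 ∧ om v e' = 0 ∧ om f e = 0 ∧ om f e' = 0 ∧
    om (g.1 *ᵥ v) f = b ∧
    ((om (g.1 *ᵥ e) e' + om (g.1 *ᵥ v) e' * om (g.1 *ᵥ e) f / b = 1 ∧
      om e (g.1 *ᵥ e') + om e (g.1 *ᵥ v) * om (g.1 *ᵥ e') f / b = 1 ∧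
      om e (g.1 *ᵥ e) + om e (g.1 *ᵥ v) * om (g.1 *ᵥ e) f / b = 0 ∧
      om (g.1 *ᵥ e') e' + om (g.1 *ᵥ v) e' * om (g.1 *ᵥ e') f / b = 0) ∨
    om (g.1 *ᵥ e) e' + om (g.1 *ᵥ v) e' * om (g.1 *ᵥ e) f / b +
      (om e (g.1 *ᵥ e') + om e (g.1 *ᵥ v) * om (g.1 *ᵥ e') f / b) ≠ 0)

theorem expand {v e f e' : Ix → F} (h1 : om v f = 1) (h2 : om e e' = 1) (h3 : om v e = 0)
    (h4 : om v e' = 0) (h5 : om f e = 0) (h6 : om f e' = 0) (y : Ix → F) :
    y = om y f • v + om y e' • e + om v y • f + om e y • e' := by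
  let k : Sp4 := ⟨_, colMat_mem h1 h2 h3 h4 h5 h6⟩
  set z := (k⁻¹).1 *ᵥ y
  have hy : y = k.1 *ᵥ z := (mul_inv_vec k y).symm
  have key : k.1 *ᵥ z = z (.inl 0) • v + z (.inl 1) • e + z (.inr 0) • f + z (.inr 1) • e' := by
    ext i
    simp [k, colMat, mulVec, dotProduct, Fintype.sum_sum_type, Fin.sum_univ_two]
    ring
  rw [hy, key]
  simp only [om_add_left, om_add_right, om_smul_left, om_smul_right, om_self, h1, h2, h3, h4, h5, h6,
    om_comm f v, om_comm e v, om_comm e' v, om_comm e f, om_comm e' f, om_comm e' e]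
  module

/-- The quadratic form of an element. -/
def qf (g : Sp4) (w : Ix → F) : F := om (g.1 *ᵥ w) w

/-- The trace of the Levi part, as a function of the first basis vector. -/
def trFun (g : Sp4) (b : F) (f v : Ix → F) : F :=
  g.1.trace + om v (g.1 *ᵥ f) + (om v ((g⁻¹).1 *ᵥ ((g⁻¹).1 *ᵥ f)) + qf g v * qf g f) / b

theorem trace_conj_basis {g : Sp4} {v e f e' : Ix → F} (h1 : om v f = 1) (h2 : om e e' = 1) (h3 : om v e = 0)
    (h4 : om v e' = 0) (h5 : om f e = 0) (h6 : om f e' = 0) :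
    g.1.trace = om (g.1 *ᵥ v) f + om (g.1 *ᵥ e) e' + (om v (g.1 *ᵥ f) + om e (g.1 *ᵥ e')) := by
  obtain ⟨k, hk⟩ := exists_basis_conj g h1 h2 h3 h4 h5 h6
  have e0 : (k⁻¹ * g * k).1.trace = g.1.trace := by
    rw [Submonoid.coe_mul, Submonoid.coe_mul, trace_mul_cycle, ← Submonoid.coe_mul, mul_inv_cancel, Submonoid.coe_one, Matrix.one_mul]
  rw [← e0, Matrix.trace, Fintype.sum_sum_type, Fin.sum_univ_two, Fin.sum_univ_two]
  simp only [diag_apply, (hk _ _).1, (hk _ _).2]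
  rfl

theorem good_of_trFun {g : Sp4} {b : F} (hb : b ≠ 0) {f v : Ix → F} (h1 : om v f = 1)
    (hv : om (g.1 *ᵥ v) f = b) (hT : trFun g b f v ≠ 0) : GoodBasis g b := by
  obtain ⟨e, e', h2, h3, h4, h5, h6⟩ := exists_completion h1
  refine ⟨v, e, f, e', h1, h2, h3, h4, h5, h6, hv, Or.inr ?_⟩
  intro h
  apply hT
  have ht := trace_conj_basis (g := g) h1 h2 h3 h4 h5 h6
  rw [hv] at ht
  have hX := expand h1 h2 h3 h4 h5 h6 ((g⁻¹).1 *ᵥ f)
  have hkey : om v ((g⁻¹).1 *ᵥ ((g⁻¹).1 *ᵥ f)) = qf g f * qf g v + om e (g.1 *ᵥ v) * om (g.1 *ᵥ e') f +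
      b * b + om (g.1 *ᵥ v) e' * om (g.1 *ᵥ e) f := by
    rw [← om_inv]
    conv_lhs => rw [hX]
    simp only [om_add_right, om_smul_right]
    rw [← om_inv g v f, ← om_inv g e f, hv, om_comm ((g⁻¹).1 *ᵥ f) f, om_comm ((g⁻¹).1 *ᵥ f) e', ← om_inv g e' f,
      ← om_inv g f f, om_comm (g.1 *ᵥ v) e]
    simp only [qf]
    ring
  simp only [trFun, hkey, ht]
  field_simp at h ⊢
  linear_combination h + (om (g.1 *ᵥ v) f * 0) + (b * om v (g.1 *ᵥ f) + qf g v * qf g f + b * b) *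
    (CharTwo.two_eq_zero : (2 : F) = 0)

/-- A vector with prescribed products against `f` and its preimage. -/
theorem exists_v {g : Sp4} {f : Ix → F} (hf : ∀ c : F, g.1 *ᵥ f ≠ c • f) (b : F) :
    ∃ v, om v f = 1 ∧ om (g.1 *ᵥ v) f = b := by
  have hf0 : f ≠ 0 := fun h => hf 0 (by simp [h])
  have hf1 : (g⁻¹).1 *ᵥ f ≠ 0 := fun h => hf0 (by rw [← mul_inv_vec g f, h, mulVec_zero])
  have hne : ∀ c : F, (g⁻¹).1 *ᵥ f ≠ c • f := fun c h => by
    by_cases hc : c = 0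
    · exact hf1 (by rw [h, hc, zero_smul])
    refine hf c⁻¹ ?_
    have e := congrArg (g.1 *ᵥ ·) h
    simp only [mul_inv_vec, mulVec_smul] at e
    conv_rhs => rw [e]
    rw [smul_smul, inv_mul_cancel₀ hc, one_smul]
  obtain ⟨v1, a1, a2⟩ := exists_dual hf1 (not_eigen_inv g hf)
  obtain ⟨v2, a3, a4⟩ := exists_dual hf0 hne
  exact ⟨v1 + b • v2, by rw [om_add_left, om_smul_left, a1, a4, mul_zero, add_zero],
    by rw [om_inv, om_add_left, om_smul_left, a2, a3, mul_one, zero_add]⟩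

theorem qf_add (g : Sp4) (x y : Ix → F) (k : F) :
    qf g (x + k • y) = qf g x + k * (om (g.1 *ᵥ x) y + om (g.1 *ᵥ y) x) + k ^ 2 * qf g y := by
  simp only [qf, mulVec_add, mulVec_smul, om_add_left, om_add_right, om_smul_left, om_smul_right]
  ring

theorem exists_w [Fintype F] (h3 : 3 ≤ Fintype.card F) : ∃ w : F, w ≠ 0 ∧ w ≠ 1 := by
  classical
  obtain ⟨w, hw⟩ := Finset.exists_mem_notMem_of_card_lt_card (s := ({0, 1} : Finset F)) (t := Finset.univ)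
    (by rw [Finset.card_univ]; exact lt_of_le_of_lt (Finset.card_insert_le _ _) (by simp; omega))
  exact ⟨w, fun h => hw.2 (by simp [h]), fun h => hw.2 (by simp [h])⟩

theorem good_of_pair [Fintype F] (h3 : 3 ≤ Fintype.card F) {g : Sp4} {b : F} (hb : b ≠ 0) {f x : Ix → F}
    (hq : qf g f ≠ 0) (hx : om x f = 0) (hx' : om x ((g⁻¹).1 *ᵥ f) = 0) (hqx : qf g x ≠ 0) :
    GoodBasis g b := by
  have hf : ∀ c : F, g.1 *ᵥ f ≠ c • f := fun c h => hq (by simp [qf, h, om_smul_left, om_self])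
  obtain ⟨v, hv1, hv2⟩ := exists_v hf b
  obtain ⟨w, hw0, hw1⟩ := exists_w h3
  obtain ⟨k, hk⟩ : ∃ k : F, trFun g b f (v + k • x) ≠ 0 := by
    by_contra h
    push Not at h
    have ea := h 0
    have e1 := h 1
    have ew := h w
    simp only [trFun, qf_add, om_add_left, om_smul_left] at ea e1 ew
    field_simp at ea e1 ew
    have : w * (w - 1) * (qf g x * qf g f) = 0 := by linear_combination ew - w * e1 + (w - 1) * ea
    rcases mul_eq_zero.1 this with h' | h'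
    · rcases mul_eq_zero.1 h' with h'' | h''
      · exact hw0 h''
      · exact hw1 (sub_eq_zero.1 h'')
    · exact mul_ne_zero hqx hq h'
  exact good_of_trFun hb (by rw [om_add_left, om_smul_left, hv1, hx, mul_zero, add_zero])
    (by rw [om_inv, om_add_left, om_smul_left, ← om_inv, hv2, hx', mul_zero, add_zero]) hk

set_option maxHeartbeats 1000000 in
theorem exists_good [Fintype F] (h3 : 3 ≤ Fintype.card F) {g : Sp4} (hg : g ∉ Subgroup.center Sp4) {b : F}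
    (hb : b ≠ 0) (hb1 : b ≠ 1) : GoodBasis g b := by
  have htwo : (2 : F) = 0 := CharTwo.two_eq_zero
  by_cases hQ : ∀ w, qf g w = 0
  · -- an involution without anisotropic vectors
    obtain ⟨f, hf⟩ := not_central_exists hg
    have hB : ∀ x y, om (g.1 *ᵥ x) y = om x (g.1 *ᵥ y) := by
      intro x y
      have := qf_add g x y 1
      rw [hQ, hQ, hQ, one_mul, one_pow, one_mul, zero_add, add_zero] at this
      rw [om_comm x]
      exact CharTwo.add_eq_zero.1 this.symm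
    have hinv : ∀ y, (g⁻¹).1 *ᵥ y = g.1 *ᵥ y := by
      intro y
      by_contra hne
      obtain ⟨z, hz⟩ := exists_om_ne (sub_ne_zero.2 hne)
      apply hz
      rw [om_sub_right, ← om_inv, hB, sub_self]
    obtain ⟨v, hv1, hv2⟩ := exists_v hf b
    refine good_of_trFun hb hv1 hv2 ?_
    obtain ⟨e, e', h2, h3', h4, h5, h6⟩ := exists_completion hv1
    have ht := trace_conj_basis (g := g) hv1 h2 h3' h4 h5 h6
    rw [hB, hB] at ht
    have htr : g.1.trace = 0 := by rw [ht]; linear_combination (om v (g.1 *ᵥ f) + om e (g.1 *ᵥ e')) * htwo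
    have hff : (g⁻¹).1 *ᵥ ((g⁻¹).1 *ᵥ f) = f := by rw [hinv ((g⁻¹).1 *ᵥ f), mul_inv_vec]
    rw [trFun, htr, hff, hv1, hQ, zero_mul, add_zero, zero_add, ← hB, hv2]
    intro h
    field_simp at h
    apply hb1
    have : (b - 1) ^ 2 = 0 := by linear_combination h - b * htwo
    exact sub_eq_zero.1 (pow_eq_zero_iff two_ne_zero |>.1 this)
  push Not at hQ
  obtain ⟨f, hq⟩ := hQ
  set f₁ := (g⁻¹).1 *ᵥ f with hf1
  set q := qf g f with hqdef
  have hq1 : om f₁ f = q := by rw [hqdef, qf, om_inv g f f, om_comm]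
  by_cases hX : ∃ x, om x f = 0 ∧ om x f₁ = 0 ∧ qf g x ≠ 0
  · obtain ⟨x, a1, a2, a3⟩ := hX
    exact good_of_pair h3 hb hq a1 a2 a3
  push Not at hX
  set v₁ := q⁻¹ • f₁ with hv1
  have hv1f : om v₁ f = 1 := by rw [hv1, om_smul_left, hq1, inv_mul_cancel₀ hq]
  obtain ⟨e, e', hee, hve, hve', hfe, hfe'⟩ := exists_completion hv1f
  have hmem : ∀ y, om v₁ y = 0 → om f y = 0 → om y f = 0 ∧ om y f₁ = 0 := fun y a1 a2 => by
    refine ⟨by rw [om_comm, a2], ?_⟩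
    rw [hv1, om_smul_left, mul_eq_zero, inv_eq_zero] at a1
    rw [om_comm, a1.resolve_left hq]
  have mE := hmem e hve hfe
  have mE' := hmem e' hve' hfe'
  have Qe : qf g e = 0 := hX e mE.1 mE.2
  have Qe' : qf g e' = 0 := hX e' mE'.1 mE'.2
  have Qs : qf g (e + (1 : F) • e') = 0 := hX _
    (by rw [one_smul, om_add_left, mE.1, mE'.1, add_zero]) (by rw [one_smul, om_add_left, mE.2, mE'.2, add_zero])
  have himg : ∀ y, om y f = 0 → om y f₁ = 0 → om (g.1 *ᵥ y) f = 0 := fun y _ a2 => by rw [om_inv, ← hf1, a2]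
  have ge := expand hv1f hee hve hve' hfe hfe' (g.1 *ᵥ e)
  rw [himg e mE.1 mE.2, show om e (g.1 *ᵥ e) = 0 by rw [om_comm]; exact Qe, zero_smul, zero_smul, zero_add,
    add_zero] at ge
  have ge' := expand hv1f hee hve hve' hfe hfe' (g.1 *ᵥ e')
  rw [himg e' mE'.1 mE'.2, show om (g.1 *ᵥ e') e' = 0 from Qe', zero_smul, zero_smul, zero_add, zero_add] at ge'
  set α := om (g.1 *ᵥ e) e'
  set α' := om e (g.1 *ᵥ e')
  set σ := om v₁ (g.1 *ᵥ e)
  set σ' := om v₁ (g.1 *ᵥ e')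
  have hαα : α = α' := by
    rw [qf_add, Qe, Qe', mul_zero, add_zero, zero_add, one_mul, om_comm (g.1 *ᵥ e') e] at Qs
    exact CharTwo.add_eq_zero.1 Qs
  have hα : α = 1 := by
    have := om_mulVec g e e'
    rw [ge, ge', hee] at this
    simp only [om_add_left, om_add_right, om_smul_left, om_smul_right, om_self, hfe, hfe', om_comm e f, hee,
      mul_zero, add_zero, zero_add, mul_one] at this
    rw [← hαα] at this
    have h2 : (α - 1) ^ 2 = 0 := by linear_combination this - (α - 1) * htwo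
    exact sub_eq_zero.1 (pow_eq_zero_iff two_ne_zero |>.1 h2)
  rw [← hαα, hα, one_smul] at ge'
  rw [hα, one_smul] at ge
  by_cases hσ : σ = 0 ∧ σ' = 0
  · obtain ⟨s1, s2⟩ := hσ
    rw [s1, zero_smul, add_zero] at ge
    rw [s2, zero_smul, zero_add] at ge'
    obtain ⟨k, hk⟩ : ∃ k : F, om (g.1 *ᵥ v₁) f + k * q = b :=
      ⟨(b - om (g.1 *ᵥ v₁) f) / q, by rw [div_mul_cancel₀ _ hq]; ring⟩
    have ge1 : (g⁻¹).1 *ᵥ e = e := by conv_lhs => rw [← ge, inv_mul_vec]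
    have ge1' : (g⁻¹).1 *ᵥ e' = e' := by conv_lhs => rw [← ge', inv_mul_vec]
    refine ⟨v₁ + k • f, e, f, e', by rw [om_add_left, om_smul_left k, hv1f, om_self, mul_zero, add_zero], hee,
      by rw [om_add_left, om_smul_left k, hve, hfe, mul_zero, add_zero],
      by rw [om_add_left, om_smul_left k, hve', hfe', mul_zero, add_zero], hfe, hfe', ?_, Or.inl ?_⟩
    · rw [mulVec_add, mulVec_smul g.1 k f, om_add_left, om_smul_left k]; exact hk
    · have a1 : om e (g.1 *ᵥ (v₁ + k • f)) = 0 := by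
        rw [om_comm, om_inv, ge1, om_add_left, om_smul_left k, hve, hfe, mul_zero, add_zero]
      have a2 : om (g.1 *ᵥ (v₁ + k • f)) e' = 0 := by
        rw [om_inv, ge1', om_add_left, om_smul_left k, hve', hfe', mul_zero, add_zero]
      rw [a1, a2, ge, ge']
      simp [hee, om_self]
  obtain ⟨y, s, hy, hs, hsy, hgy⟩ : ∃ y s, (om y f = 0 ∧ om y f₁ = 0) ∧ (om s f = 0 ∧ om s f₁ = 0) ∧
      om s y = q ∧ g.1 *ᵥ y = y + f := by
    by_cases s1 : σ = 0
    · have s2 : σ' ≠ 0 := fun h => hσ ⟨s1, h⟩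
      refine ⟨σ'⁻¹ • e', (q * σ') • e, ⟨?_, ?_⟩, ⟨?_, ?_⟩, ?_, ?_⟩
      · rw [om_smul_left, mE'.1, mul_zero]
      · rw [om_smul_left, mE'.2, mul_zero]
      · rw [om_smul_left, mE.1, mul_zero]
      · rw [om_smul_left, mE.2, mul_zero]
      · rw [om_smul_left, om_smul_right, hee]; field_simp
      · rw [mulVec_smul, ge', smul_add, smul_smul, inv_mul_cancel₀ s2, one_smul]; abel
    · refine ⟨σ⁻¹ • e, (q * σ) • e', ⟨?_, ?_⟩, ⟨?_, ?_⟩, ?_, ?_⟩
      · rw [om_smul_left, mE.1, mul_zero]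
      · rw [om_smul_left, mE.2, mul_zero]
      · rw [om_smul_left, mE'.1, mul_zero]
      · rw [om_smul_left, mE'.2, mul_zero]
      · rw [om_smul_left, om_smul_right, om_comm e' e, hee]; field_simp
      · rw [mulVec_smul, ge, smul_add, smul_smul, inv_mul_cancel₀ s1, one_smul]
  have hgy1 : (g⁻¹).1 *ᵥ y = y + f₁ := by
    have := congrArg ((g⁻¹).1 *ᵥ ·) hgy
    simp only [inv_mul_vec, mulVec_add, ← hf1] at this
    rw [eq_sub_of_add_eq this.symm, sub_eq_add_neg]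
    congr 1
    ext i
    exact neg_two _
  obtain ⟨k, hk0, hk1⟩ := exists_w h3
  set f' := y + k • f
  have hqy : qf g y = 0 := hX y hy.1 hy.2
  have hqf' : qf g f' ≠ 0 := by
    have e : qf g f' = k * (1 + k) * q := by
      rw [qf_add, hqy, ← hqdef, hgy, om_add_left, hy.1, om_self, show om (g.1 *ᵥ f) y = q by
        rw [om_inv, hgy1, om_add_right, om_comm f y, hy.1, zero_add, om_comm, hq1]]
      ring
    rw [e]
    refine mul_ne_zero (mul_ne_zero hk0 fun h => hk1 ?_) hq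
    linear_combination h - htwo
  have hgf' : (g⁻¹).1 *ᵥ f' = y + (1 + k) • f₁ := by
    simp only [f', mulVec_add, mulVec_smul, hgy1, ← hf1]
    module
  set x₀ := k • f + (1 + k) • f₁ + (k * (1 + k)) • s
  have horth : ∀ ε : F, om (x₀ + ε • y) f' = 0 ∧ om (x₀ + ε • y) ((g⁻¹).1 *ᵥ f') = 0 := by
    intro ε
    rw [hgf']
    simp only [x₀, f', om_add_left, om_add_right, om_smul_left, om_smul_right, om_self, hy.1, hy.2, hs.1, hs.2,
      hsy, hq1, om_comm f y, om_comm f₁ y, om_comm f f₁]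
    constructor <;> linear_combination (k * (1 + k) * q) * htwo
  have hB : om (g.1 *ᵥ x₀) y + om (g.1 *ᵥ y) x₀ = q := by
    rw [hgy, om_inv g x₀ y, hgy1]
    simp only [x₀, om_add_left, om_add_right, om_smul_left, om_smul_right, om_self, hy.1, hy.2, hs.1, hs.2,
      hsy, hq1, om_comm f y, om_comm f₁ y, om_comm f f₁, om_comm y s, om_comm f s]
    linear_combination ((k + k * (1 + k)) * q) * htwo
  obtain ⟨ε, hε⟩ : ∃ ε : F, qf g (x₀ + ε • y) ≠ 0 := by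
    by_cases h0 : qf g x₀ = 0
    · refine ⟨1, ?_⟩
      rw [qf_add, h0, hqy, hB]
      simpa using hq
    · exact ⟨0, by simpa using h0⟩
  exact good_of_pair h3 hb hqf' (horth ε).1 (horth ε).2 hε

theorem exists_sl_conj [Fintype F] {t : F} (hi : Irr2 t 1) (A : SL2) (hA : A.1 = comp2 t 1) {B : M2}
    (hd : B.det = 1) (ht : B.trace = t) : ∃ P : SL2, (P * A * P⁻¹).1 = B := by
  have hne := hi.entry_ne ht hd
  obtain ⟨e1, e2⟩ := exists_conj_comp hne ht hd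
  set R : M2 := !![1, B 0 0; 0, B 1 0] with hR
  obtain ⟨r, hr⟩ := FiniteField.isSquare_of_char_two (ringChar.eq F 2) R.det
  have hr0 : r ≠ 0 := by rintro rfl; rw [e2, mul_zero] at hr; exact hne hr
  have hdet : (r⁻¹ • R).det = 1 := by
    rw [det_smul, Fintype.card_fin, hr]; field_simp
  obtain ⟨P, hP⟩ : ∃ P : SL2, P.1 = r⁻¹ • R := ⟨⟨_, hdet⟩, rfl⟩
  refine ⟨P, ?_⟩
  rw [sl_mul, sl_mul, sl_inv, hA, hP]
  conv_rhs => rw [e1, Matrix.inv_def, Ring.inverse_eq_inv', hr]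
  rw [adjugate_smul, Fintype.card_fin]
  simp only [Matrix.smul_mul, Matrix.mul_smul, smul_smul]
  congr 1
  rw [pow_one, mul_inv]

theorem levi_factor [Fintype F] (h3 : 3 ≤ Fintype.card F) {t : F} (hi : Irr2 t 1) (A : SL2)
    (hA : A.1 = comp2 t 1) (S : SL2) (hS : S.1 = 1 ∨ S.1 0 0 + S.1 1 1 ≠ 0) :
    ∃ P Q : SL2, S = (P * A * P⁻¹) * (Q * A * Q⁻¹) := by
  suffices ∃ B C : M2, B * C = S.1 ∧ B.det = 1 ∧ B.trace = t ∧ C.det = 1 ∧ C.trace = t by
    obtain ⟨B, C, e, b1, b2, c1, c2⟩ := this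
    obtain ⟨P, hP⟩ := exists_sl_conj hi A hA b1 b2
    obtain ⟨Q, hQ⟩ := exists_sl_conj hi A hA c1 c2
    exact ⟨P, Q, Subtype.ext (by rw [sl_mul, hP, hQ, e])⟩
  rcases hS with hS | hS
  · refine ⟨(comp2 t 1), (comp2 t 1).adjugate, ?_, det_comp2 t 1, trace_comp2 t 1, ?_, ?_⟩
    · rw [mul_adjugate, det_comp2, one_smul, hS]
    · rw [det_adjugate, det_comp2, one_pow]
    · simp [comp2, adjugate_fin_two_of, trace_fin_two]
  obtain ⟨w, hw0, hw1⟩ := exists_w h3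
  -- move a nonzero entry below the diagonal
  obtain ⟨R, hRd, hR10⟩ : ∃ R : SL2, (R : M2).det = 1 ∧ (R * S * R⁻¹).1 1 0 ≠ 0 := by
    by_cases h10 : S.1 1 0 ≠ 0
    · exact ⟨1, by simp, by simpa using h10⟩
    push Not at h10
    have hk : ∀ k : F, ∃ R : SL2, (R * S * R⁻¹).1 1 0 = k * (S.1 0 0 - S.1 1 1) - k ^ 2 * S.1 0 1 := by
      intro k
      obtain ⟨R, hR⟩ : ∃ R : SL2, R.1 = !![1, 0; k, 1] := ⟨⟨_, by simp [det_fin_two]⟩, rfl⟩
      refine ⟨R, ?_⟩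
      rw [sl_mul, sl_mul, sl_inv, hR]
      simp [adjugate_fin_two, mul_apply, vecMul, dotProduct, Fin.sum_univ_two, h10]
      ring
    have hne : S.1 0 0 - S.1 1 1 ≠ 0 := by rwa [CharTwo.sub_eq_add]
    by_cases h1 : S.1 0 0 - S.1 1 1 - S.1 0 1 = 0
    · obtain ⟨R, hR⟩ := hk w
      refine ⟨R, R.2, ?_⟩
      rw [hR, ← sub_eq_zero.1 h1, show w * (S.1 0 0 - S.1 1 1) - w ^ 2 * (S.1 0 0 - S.1 1 1) =
        w * (1 - w) * (S.1 0 0 - S.1 1 1) by ring]
      exact mul_ne_zero (mul_ne_zero hw0 (sub_ne_zero.2 (Ne.symm hw1))) hne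
    · obtain ⟨R, hR⟩ := hk 1
      exact ⟨R, R.2, by rw [hR]; simpa using h1⟩
  set N : M2 := (R * S * R⁻¹).1 with hN
  have hNd : N.det = 1 := (R * S * R⁻¹).2
  set T := S.1 0 0 + S.1 1 1
  have hNt : N.trace = T := by
    rw [hN, sl_mul, sl_mul, trace_mul_cycle, ← sl_mul,
      inv_mul_cancel, sl_one, Matrix.one_mul, trace_fin_two]
  obtain ⟨e1, e2⟩ := exists_conj_comp hR10 hNt hNd
  set P₀ : M2 := !![1, N 0 0; 0, N 1 0] with hP₀
  obtain ⟨B, C, hBC, b1, b2, c1, c2⟩ := exists_factor (x := -1) (y := 1) (z := T) hi (by ring)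
    (by rw [CharTwo.two_eq_zero, zero_mul]; exact hS) (fun h => absurd CharTwo.two_eq_zero h)
  have hP0 : IsUnit P₀.det := by rw [e2]; exact hR10.isUnit
  set Z : M2 := (R⁻¹).1 * P₀
  set Z' : M2 := P₀⁻¹ * R.1
  have hRR : (R⁻¹).1 * R.1 = 1 := by rw [← sl_mul, inv_mul_cancel, sl_one]
  have hRR' : R.1 * (R⁻¹).1 = 1 := by rw [← sl_mul, mul_inv_cancel, sl_one]
  have hZ' : Z' * Z = 1 := by
    simp only [Z, Z', Matrix.mul_assoc]
    rw [← Matrix.mul_assoc R.1, hRR', Matrix.one_mul, Matrix.nonsing_inv_mul _ hP0]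
  have hZ : Z * Z' = 1 := mul_eq_one_comm.1 hZ'
  have htr : ∀ X : M2, (Z * X * Z').trace = X.trace ∧ (Z * X * Z').det = X.det := fun X => by
    refine ⟨by rw [trace_mul_cycle, hZ', Matrix.one_mul], ?_⟩
    rw [det_mul, det_mul, mul_comm Z.det, mul_assoc, ← det_mul, hZ, det_one, mul_one]
  refine ⟨Z * B * Z', Z * C * Z', ?_, (htr B).2.trans b1, (htr B).1.trans b2, (htr C).2.trans c1,
    (htr C).1.trans c2⟩
  calc Z * B * Z' * (Z * C * Z') = Z * (B * C) * Z' := by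
        simp only [Matrix.mul_assoc]
        rw [← Matrix.mul_assoc Z', hZ', Matrix.one_mul]
    _ = Z * comp2 T 1 * Z' := by rw [hBC]; rfl
    _ = (R⁻¹).1 * N * R.1 := by rw [e1]; simp only [Z, Z', Matrix.mul_assoc]
    _ = S.1 := by
        rw [hN, sl_mul, sl_mul, ← Matrix.mul_assoc, ← Matrix.mul_assoc,
          hRR, Matrix.one_mul, Matrix.mul_assoc, hRR, Matrix.mul_one]

/-- The covering class in characteristic two. -/
theorem exists_cover_even [Fintype F] (h3 : 3 ≤ Fintype.card F) :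
    ∃ x : Sp4, ¬ 2 ∣ orderOf x ∧ ∀ g : Sp4, g ∉ Subgroup.center Sp4 → Prod2 x g := by
  classical
  haveI : Fact (Nat.Prime 2) := ⟨Nat.prime_two⟩
  obtain ⟨w, hw0, hw1⟩ := exists_w (F := F) h3
  have hsq : ∀ x : F, x ^ 2 = 1 → x = 1 := fun x h => by
    have : (x - 1) ^ 2 = 0 := by linear_combination h - (x - 1) * (CharTwo.two_eq_zero : (2 : F) = 0)
    exact sub_eq_zero.1 (pow_eq_zero_iff two_ne_zero |>.1 this)
  obtain ⟨t, -, hi⟩ := exists_irr2 (one_ne_zero (α := F)) ⟨w, hw0, fun h => hw1 (hsq w (by rw [sq]; exact h))⟩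
  set A : SL2 := ⟨comp2 t 1, det_comp2 t 1⟩
  set a : Fˣ := Units.mk0 w hw0
  have ha : a ^ 2 ≠ 1 := fun h => hw1 (hsq w (by
    have := congrArg Units.val h
    simpa [a] using this))
  refine ⟨lev (a, A), fun h => ?_, fun g hg => ?_⟩
  · have h1 : orderOf (lev (a, A)) ∣ Nat.lcm (orderOf a) (orderOf A) := by
      refine (orderOf_map_dvd lev (a, A)).trans ?_
      rw [Prod.orderOf]
    have ha2 : ¬ 2 ∣ orderOf a := by
      intro h2
      have h4 : 2 ∣ Fintype.card Fˣ := h2.trans orderOf_dvd_card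
      rw [Fintype.card_units] at h4
      obtain ⟨n, -, hn⟩ := FiniteField.card F 2
      have h5 : 2 ∣ Fintype.card F := by rw [hn]; exact dvd_pow_self 2 n.ne_zero
      omega
    have hA2 : ¬ 2 ∣ orderOf A := by
      intro h2
      refine order_comp2 hi 2 (SpecialLinearGroup.toGL A) rfl ?_
      rwa [orderOf_injective SpecialLinearGroup.toGL (fun B B' e => Subtype.ext (congrArg Units.val e))]
    rcases (Nat.Prime.dvd_mul Nat.prime_two).1 ((h.trans h1).trans (Nat.lcm_dvd_mul _ _)) with h' | h'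
    · exact ha2 h'
    · exact hA2 h'
  set b : Fˣ := a * a with hbdef
  have hb1 : (b : F) ≠ 1 := fun h => ha (by rw [sq, ← hbdef]; exact Units.ext h)
  obtain ⟨v, e, f, e', h1, h2, h3', h4, h5, h6, hv, hS⟩ := exists_good h3 hg b.ne_zero hb1
  obtain ⟨k, hk⟩ := exists_basis_conj g h1 h2 h3' h4 h5 h6
  have hk00 : (k⁻¹ * g * k).1 (.inl 0) (.inl 0) = b := by rw [(hk _ _).1]; exact hv
  obtain ⟨l, hl, u, hu, S, heq, s00, s11, s10, s01⟩ := exists_ldu_point (k⁻¹ * g * k) b hk00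
  simp only [(hk _ _).1, (hk _ _).2] at s00 s11 s10 s01
  simp at s00 s11 s10 s01
  have hS' : S.1 = 1 ∨ S.1 0 0 + S.1 1 1 ≠ 0 := by
    rcases hS with ⟨a1, a2, a3, a4⟩ | hS
    · left
      ext i j
      fin_cases i <;> fin_cases j <;> simp [s00, s11, s10, s01, a1, a2, a3, a4]
    · right
      rw [s00, s11]
      exact hS
  obtain ⟨P, Q, hPQ⟩ := levi_factor h3 hi A rfl S hS'
  refine Prod2.of_conj (k := k) ?_
  have hprod : lev (b, S) = (lev (1, P) * lev (a, A) * (lev (1, P))⁻¹) * (lev (1, Q) * lev (a, A) * (lev (1, Q))⁻¹) := by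
    simp only [← map_inv, ← map_mul, Prod.inv_mk, Prod.mk_mul_mk, one_mul, inv_one, mul_one, hbdef, hPQ]
  rw [heq, hprod]
  have hn := fun x => radP_normal (bE_o_normal (F := F)).1 x
  have hn' := fun x => radP_normal (bE_o_normal (F := F)).2 x
  exact prod2_of_ldu (radP (F := F) (.inl 0)) (radP (F := F) (.inr 0)) (hn _)
    (radP_fix hi (A := A) rfl (Or.inl ⟨rfl, rfl⟩) ha (lev_l0 a A) (lev_r0 a A)) (hn' _)
    (radP_fix hi (A := A) rfl (Or.inr ⟨rfl, rfl⟩) (s := a⁻¹) (by rwa [inv_pow, ne_eq, inv_eq_one])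
      (lev_r0 a A) (by rw [inv_inv]; exact lev_l0 a A))
    (fun w hw => by have := hn' ((1 : Fˣ), P)⁻¹ w hw; rwa [map_inv, inv_inv] at this)
    (fun w hw => by have := hn ((1 : Fˣ), Q)⁻¹ w hw; rwa [map_inv, inv_inv] at this) hl hu

end Cfsg.Agent.PSp4Cover
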