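import Mathlib

/-!
Products of two elements with a given irreducible characteristic polynomial in dimension two (owner: helper17).
-/

set_option autoImplicit false

namespace Cfsg.Agent.PSp4Cover

open Matrix

variable {F : Type*} [Field F]

/-- The quadratic `X² - tX + d` has no root. -/
def Irr2 (t d : F) : Prop := ∀ x : F, x * x - t * x + d ≠ 0

/-- The companion matrix of `X² - tX + d`. -/
def comp2 (t d : F) : Matrix (Fin 2) (Fin 2) F := !![0, -d; 1, t]

theorem det_comp2 (t d : F) : (comp2 t d).det = d := by simp [comp2, det_fin_two]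

theorem trace_comp2 (t d : F) : (comp2 t d).trace = t := by simp [comp2, trace_fin_two]

theorem Irr2.ne_zero {t d : F} (h : Irr2 t d) : d ≠ 0 := fun e => h 0 (by simp [e])

theorem mat2_sq (B : Matrix (Fin 2) (Fin 2) F) : B * B = B.trace • B - B.det • 1 := by
  ext i j
  fin_cases i <;> fin_cases j <;> simp [trace_fin_two, det_fin_two, mul_apply, Fin.sum_univ_two] <;> ring

/-- Similarity to the companion matrix, with the conjugating matrix. -/
theorem exists_conj_comp {t d : F} {B : Matrix (Fin 2) (Fin 2) F} (hB : B 1 0 ≠ 0) (ht : B.trace = t)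
    (hd : B.det = d) :
    B = !![1, B 0 0; 0, B 1 0] * comp2 t d * (!![1, B 0 0; 0, B 1 0] : Matrix (Fin 2) (Fin 2) F)⁻¹ ∧
      (!![1, B 0 0; 0, B 1 0] : Matrix (Fin 2) (Fin 2) F).det = B 1 0 := by
  have hdet : (!![1, B 0 0; 0, B 1 0] : Matrix (Fin 2) (Fin 2) F).det = B 1 0 := by simp [det_fin_two]
  refine ⟨?_, hdet⟩
  have e : B * !![1, B 0 0; 0, B 1 0] = !![1, B 0 0; 0, B 1 0] * comp2 t d := by
    ext i j
    rw [trace_fin_two] at ht
    rw [det_fin_two] at hd
    fin_cases i <;> fin_cases j <;> simp [comp2, mul_apply, Fin.sum_univ_two, ← ht, ← hd] <;> ring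
  rw [← e, Matrix.mul_nonsing_inv_cancel_right _ _ (by rw [hdet]; exact hB.isUnit)]

theorem Irr2.entry_ne {t d : F} (h : Irr2 t d) {B : Matrix (Fin 2) (Fin 2) F} (ht : B.trace = t)
    (hd : B.det = d) : B 1 0 ≠ 0 := by
  intro h0
  apply h (B 0 0)
  rw [← ht, ← hd, trace_fin_two, det_fin_two, h0]
  ring

section

variable [Fintype F]

/-- The key conic has a point. -/
theorem quad_point {t d k : F} (hi : Irr2 t d) (hk : k ≠ 2) (ht : (2 : F) ≠ 0 → t ≠ 0) :
    ∃ p u : F, p ^ 2 + k * p * u + u ^ 2 - t * (p + u) + d = 0 := by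
  by_cases h2 : (2 : F) = 0
  · haveI : CharP F 2 := CharTwo.of_one_ne_zero_of_two_eq_zero one_ne_zero h2
    have hk0 : k ≠ 0 := fun e => hk (by rw [e, h2])
    -- with `s = p + u` and `p = x`
    set x := t / k
    obtain ⟨s, hs⟩ := FiniteField.isSquare_of_char_two (ringChar.eq F 2) (-(k * x ^ 2 + d))
    refine ⟨x, s - x, ?_⟩
    have hx : k * x = t := mul_div_cancel₀ _ hk0
    linear_combination -hs + (s) * hx + (x ^ 2 - k * x ^ 2 - x * s) * h2
  · have ht0 := ht h2
    have hodd : Fintype.card F % 2 = 1 := FiniteField.odd_card_of_char_ne_two (by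
      intro e
      exact h2 (by have := ringChar.Nat.cast_ringChar (R := F); rwa [e, Nat.cast_two] at this))
    set c := (2 - k)⁻¹ with hc
    have hc' : (2 - k) * c = 1 := mul_inv_cancel₀ (sub_ne_zero.2 (Ne.symm hk))
    suffices ∃ s r : F, r * r = s ^ 2 - 4 * c * (s ^ 2 - t * s + d) by
      obtain ⟨s, r, hr⟩ := this
      refine ⟨(s + r) / 2, (s - r) / 2, ?_⟩
      field_simp
      linear_combination (2 - k) * hr - 4 * (s ^ 2 - t * s + d) * hc'
    by_cases ha : 1 - 4 * c = 0
    · have h4 : 4 * c = 1 := by linear_combination -ha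
      refine ⟨d / t, 0, ?_⟩
      rw [h4]
      field_simp
      ring
    · open Polynomial in
      obtain ⟨s, r, hr⟩ := FiniteField.exists_root_sum_quadratic (R := F)
        (f := Polynomial.C (1 - 4 * c) * X ^ 2 + Polynomial.C (4 * c * t) * X + Polynomial.C (-(4 * c * d)))
        (g := Polynomial.C (-1) * X ^ 2 + Polynomial.C 0 * X + Polynomial.C 0)
        (Polynomial.degree_quadratic ha) (Polynomial.degree_quadratic (neg_ne_zero.2 one_ne_zero)) hodd
      refine ⟨s, r, ?_⟩
      simp at hr
      linear_combination -hr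

/-- A matrix with zero corner of determinant `d²` is a product of two companions up to conjugation. -/
theorem exists_factor {t d x y z : F} (hi : Irr2 t d) (hxy : -(x * y) = d ^ 2) (hz : z ≠ 2 * d)
    (ht : (2 : F) ≠ 0 → t ≠ 0) :
    ∃ B C : Matrix (Fin 2) (Fin 2) F, B * C = !![0, x; y, z] ∧ B.det = d ∧ B.trace = t ∧ C.det = d ∧
      C.trace = t := by
  have hd := hi.ne_zero
  have hy : y ≠ 0 := by
    rintro rfl
    simp at hxy
    exact hd (pow_eq_zero_iff two_ne_zero |>.1 hxy.symm)
  obtain ⟨p, u, hpu⟩ := quad_point (k := z / d) hi (fun e => hz ((div_eq_iff hd).1 e)) ht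
  set s := y * (u / d) with hs
  set r := (p * z - s * x - t * d) / y with hr
  set B : Matrix (Fin 2) (Fin 2) F := !![p, r; s, t - p] with hB
  have hBd : B.det = d := by
    obtain ⟨w, rfl⟩ : ∃ w, u = d * w := ⟨u / d, (mul_div_cancel₀ _ hd).symm⟩
    have e0 : z / d * p * (d * w) = z * p * w := by field_simp
    have e1 : r * s = (p * z - s * x - t * d) * w := by
      rw [hr, hs]; field_simp
    have e2 : s = y * w := by rw [hs, mul_div_cancel_left₀ _ hd]
    simp only [hB, det_fin_two_of]
    linear_combination -hpu + e0 - e1 + w * x * e2 - w ^ 2 * hxy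
  have hu : IsUnit B.det := by rw [hBd]; exact hd.isUnit
  refine ⟨B, B⁻¹ * !![0, x; y, z], Matrix.mul_nonsing_inv_cancel_left _ _ hu, hBd,
    by simp [hB, trace_fin_two], ?_, ?_⟩
  · rw [det_mul, det_nonsing_inv, hBd, det_fin_two_of, Ring.inverse_eq_inv']
    field_simp
    linear_combination hxy
  · rw [Matrix.inv_def, hBd, Ring.inverse_eq_inv', Matrix.smul_mul, trace_smul, hB, adjugate_fin_two_of]
    simp only [trace_fin_two, mul_apply, Fin.sum_univ_two, smul_eq_mul]
    simp only [hr, Matrix.of_apply, Matrix.cons_val', Matrix.cons_val_zero, Matrix.cons_val_one,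
      Matrix.cons_val_fin_one]
    field_simp
    ring

/-- A quadratic without root, of constant term not one, and of nonzero linear term in odd characteristic. -/
theorem exists_irr2 {d : F} (hd : d ≠ 0) (hsq : ∃ x : F, x ≠ 0 ∧ x * x ≠ d) : ∃ t : F, t ≠ 0 ∧ Irr2 t d := by
  classical
  obtain ⟨x, hx, hxd⟩ := hsq
  set s := (Finset.univ : Finset F).erase 0
  have hsc : s.card = Fintype.card F - 1 := by
    rw [Finset.card_erase_of_mem (Finset.mem_univ _), Finset.card_univ]
  have himg : (s.image fun x => x + d / x).card < s.card := by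
    refine lt_of_le_of_ne Finset.card_image_le fun e => ?_
    have h1 := Finset.card_image_iff.1 e
    have := h1 (x₁ := x) (by simp [s, hx]) (x₂ := d / x) (by simp [s, hx, hd]) (by field_simp; ring)
    exact hxd (by field_simp at this; linear_combination this)
  obtain ⟨t, ht, ht'⟩ := Finset.exists_mem_notMem_of_card_lt_card himg
  refine ⟨t, (Finset.mem_erase.1 ht).1, fun y hy => ?_⟩
  have hy0 : y ≠ 0 := by rintro rfl; simp at hy; exact hd hy
  refine ht' (Finset.mem_image.2 ⟨y, by simp [s, hy0], ?_⟩)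
  field_simp
  linear_combination hy

/-- A matrix with irreducible characteristic polynomial has order prime to the characteristic. -/
theorem order_comp2 {t d : F} (hi : Irr2 t d) (p : ℕ) [Fact p.Prime] [CharP F p] (u : GL (Fin 2) F)
    (hu : (u : Matrix (Fin 2) (Fin 2) F) = comp2 t d) : ¬ p ∣ orderOf u := by
  rintro ⟨m, hm⟩
  have hpos := orderOf_pos u
  have hm0 : m ≠ 0 := by intro e; rw [e, mul_zero] at hm; omega
  have hlin : ∀ k : ℕ, ∃ a b : F, comp2 t d ^ k = a • 1 + b • comp2 t d := by
    intro k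
    induction k with
    | zero => exact ⟨1, 0, by simp⟩
    | succ k ih =>
      obtain ⟨a, b, e⟩ := ih
      refine ⟨-(b * d), a + b * t, ?_⟩
      rw [pow_succ, e, Matrix.add_mul, Matrix.smul_mul, Matrix.smul_mul, mat2_sq, trace_comp2, det_comp2,
        one_mul, smul_sub, smul_smul, smul_smul, neg_smul, add_smul]
      abel
  obtain ⟨a, b, e⟩ := hlin m
  have h1 : (comp2 t d ^ m - 1) ^ p = 0 := by
    rw [sub_pow_char_of_commute p (Commute.one_right _), one_pow, ← pow_mul, mul_comm, ← hm, ← hu,
      ← Units.val_pow_eq_pow_val, pow_orderOf_eq_one, Units.val_one, sub_self]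
  have h2 : ((a - 1) • (1 : Matrix (Fin 2) (Fin 2) F) + b • comp2 t d).det = 0 := by
    have h3 := congrArg Matrix.det h1
    rw [det_pow, det_zero] at h3
    rw [show (a - 1) • (1 : Matrix (Fin 2) (Fin 2) F) + b • comp2 t d = comp2 t d ^ m - 1 by
      rw [e, sub_smul, one_smul]; abel]
    exact pow_eq_zero_iff (Fact.out : p.Prime).ne_zero |>.1 h3
  simp [comp2, det_fin_two] at h2
  have hb : b = 0 := by
    by_contra hb
    apply hi (-((a - 1) / b))
    field_simp
    linear_combination h2
  have ha : a = 1 := by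
    rw [hb] at h2
    simp at h2
    exact sub_eq_zero.1 h2
  have h4 : u ^ m = 1 := Units.ext (by rw [Units.val_pow_eq_pow_val, hu, e, ha, hb]; simp)
  have h5 : orderOf u ≤ m := orderOf_le_of_pow_eq_one (Nat.pos_of_ne_zero hm0) h4
  have h6 : 2 * m ≤ p * m := Nat.mul_le_mul_right m (Fact.out : p.Prime).two_le
  omega

end

end Cfsg.Agent.PSp4Cover
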