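import Cfsg.Agent.PSp4Cover.Even
import Cfsg.Prelude.Def_Classical

/-! Every nonidentity element of `PSp₄` is a product of two conjugates of one semisimple element (owner: helper17). -/

set_option autoImplicit false

namespace Cfsg.Agent.PSp4Cover

open Matrix

variable {F : Type*} [Field F]

local notation "Sp4" => Matrix.symplecticGroup (Fin 2) F

theorem psp_cover [Fintype F] (p : ℕ) [Fact p.Prime] [CharP F p] (h3 : 3 ≤ Fintype.card F) :
    ∃ x : Cfsg.PSp 2 F, ¬ p ∣ orderOf x ∧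
      ∀ g : Cfsg.PSp 2 F, g ≠ 1 → ∃ u v : Cfsg.PSp 2 F, g = (u * x * u⁻¹) * (v * x * v⁻¹) := by
  set π := QuotientGroup.mk' (Subgroup.center Sp4)
  suffices h : ∃ x : Sp4, ¬ p ∣ orderOf x ∧ ∀ g : Sp4, g ∉ Subgroup.center Sp4 →
      ∃ g' : Sp4, (g' = g ∨ g'.1 = -g.1) ∧ Prod2 x g' by
    obtain ⟨x, hx, hcov⟩ := h
    refine ⟨π x, fun h => hx (h.trans (orderOf_map_dvd π x)), fun g hg => ?_⟩
    obtain ⟨g₀, rfl⟩ := QuotientGroup.mk'_surjective _ g
    obtain ⟨g', hg', hp⟩ := hcov g₀ fun hc => hg ((QuotientGroup.eq_one_iff g₀).2 hc)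
    have e : π g₀ = π g' := by
      rcases hg' with rfl | hneg
      · rfl
      · refine (QuotientGroup.eq.2 ?_)
        rw [Subgroup.mem_center_iff]
        intro h
        have e2 : g' = ⟨-g₀.1, SymplecticGroup.neg_mem g₀.2⟩ := Subtype.ext hneg
        have e3 : (g₀⁻¹ * g').1 = -1 := by
          rw [e2, Submonoid.coe_mul]
          show (g₀⁻¹).1 * -g₀.1 = -1
          rw [Matrix.mul_neg, ← Submonoid.coe_mul, inv_mul_cancel, Submonoid.coe_one]
        apply Subtype.ext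
        show h.1 * (g₀⁻¹ * g').1 = (g₀⁻¹ * g').1 * h.1
        rw [e3, Matrix.neg_mul, Matrix.mul_neg, Matrix.one_mul, Matrix.mul_one]
    rw [e]
    exact hp.map π
  by_cases h2 : (2 : F) = 0
  · haveI : CharP F 2 := CharTwo.of_one_ne_zero_of_two_eq_zero one_ne_zero h2
    obtain rfl : p = 2 := CharP.eq F ‹CharP F p› ‹CharP F 2›
    obtain ⟨x, hx, h⟩ := exists_cover_even (F := F) h3
    exact ⟨x, hx, fun g hg => ⟨g, Or.inl rfl, h g hg⟩⟩
  · exact exists_cover_odd p h2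

end Cfsg.Agent.PSp4Cover
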