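import Cfsg.Agent.PSp4Cover.Basic
import Cfsg.Agent.PSp4Cover.Gl2

/-!
The covering class in odd characteristic: the Siegel Levi subgroup (owner: helper17).
-/

set_option autoImplicit false

namespace Cfsg.Agent.PSp4Cover

open Matrix

variable {F : Type*} [Field F]

local notation "Ix" => Fin 2 ⊕ Fin 2
local notation "Sp4" => Matrix.symplecticGroup (Fin 2) F
local notation "M2" => Matrix (Fin 2) (Fin 2) F

theorem not_central_exists {g : Sp4} (hg : g ∉ Subgroup.center Sp4) :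
    ∃ f : Ix → F, ∀ c : F, g.1 *ᵥ f ≠ c • f := by
  classical
  by_contra hne
  push Not at hne
  choose c hc using hne
  apply hg
  have key : ∀ i j : Ix, c (Pi.single i 1) = c (Pi.single j 1) := by
    intro i j
    by_cases hij : i = j
    · rw [hij]
    have h := hc (Pi.single i 1 + Pi.single j 1)
    rw [mulVec_add, hc, hc] at h
    have h1 := congrFun h i
    have h2 := congrFun h j
    simp [Pi.single_apply, hij, Ne.symm hij] at h1 h2
    rw [h1, h2]
  have he : g.1 = c (Pi.single (.inl 0) 1) • (1 : Matrix Ix Ix F) := by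
    ext i j
    have := congrFun (hc (Pi.single j 1)) i
    rw [mulVec_single_one] at this
    simp only [col_apply] at this
    rw [this, Matrix.smul_apply, key j (.inl 0), Pi.smul_apply, one_apply, Pi.single_apply]
  rw [Subgroup.mem_center_iff]
  intro h
  apply Subtype.ext
  rw [Submonoid.coe_mul, Submonoid.coe_mul, he, Matrix.mul_smul, Matrix.smul_mul, Matrix.mul_one, Matrix.one_mul]

theorem mul_inv_vec (g : Sp4) (f : Ix → F) : g.1 *ᵥ ((g⁻¹).1 *ᵥ f) = f := by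
  rw [mulVec_mulVec, ← Submonoid.coe_mul, mul_inv_cancel, Submonoid.coe_one, one_mulVec]

theorem inv_mul_vec (g : Sp4) (f : Ix → F) : (g⁻¹).1 *ᵥ (g.1 *ᵥ f) = f := by
  rw [mulVec_mulVec, ← Submonoid.coe_mul, inv_mul_cancel, Submonoid.coe_one, one_mulVec]

theorem not_eigen_inv (g : Sp4) {f : Ix → F} (h : ∀ c : F, g.1 *ᵥ f ≠ c • f) :
    ∀ c : F, f ≠ c • ((g⁻¹).1 *ᵥ f) := by
  intro c e
  apply h c
  conv_lhs => rw [e]
  rw [mulVec_smul, mulVec_mulVec, ← Submonoid.coe_mul, mul_inv_cancel, Submonoid.coe_one, one_mulVec]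

theorem mH_mem (A : GL (Fin 2) F) : fromBlocks A.1 0 0 (A⁻¹).1ᵀ ∈ Sp4 := by
  rw [SymplecticGroup.fromBlocks_mem_iff]
  refine ⟨by simp, by simp, ?_⟩
  rw [← transpose_mul, ← Units.val_mul, inv_mul_cancel]
  simp

/-- The Levi subgroup of the Siegel parabolic subgroup. -/
def mH : GL (Fin 2) F →* Sp4 where
  toFun A := ⟨_, mH_mem A⟩
  map_one' := Subtype.ext (by simp)
  map_mul' A B := Subtype.ext (by simp [fromBlocks_multiply, transpose_mul])

theorem mH_val (A : GL (Fin 2) F) : (mH A).1 = fromBlocks A.1 0 0 (A⁻¹).1ᵀ := rfl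

theorem nU_mem {S : M2} (hS : Sᵀ = S) : fromBlocks 1 S 0 1 ∈ Sp4 := by
  rw [SymplecticGroup.fromBlocks_mem_iff]
  simp [hS]

theorem nL_mem {S : M2} (hS : Sᵀ = S) : fromBlocks 1 0 S 1 ∈ Sp4 := by
  rw [SymplecticGroup.fromBlocks_mem_iff]
  simp [hS]

/-- The unipotent radical. -/
def radU : Subgroup Sp4 where
  carrier := {g | ∃ S : M2, Sᵀ = S ∧ g.1 = fromBlocks 1 S 0 1}
  one_mem' := ⟨0, by simp, by simp⟩
  mul_mem' := by
    rintro g g' ⟨S, hS, e⟩ ⟨S', hS', e'⟩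
    exact ⟨S' + S, by simp [hS, hS'], by rw [Submonoid.coe_mul, e, e', fromBlocks_multiply]; simp⟩
  inv_mem' := by
    rintro g ⟨S, hS, e⟩
    refine ⟨-S, by simp [hS], ?_⟩
    have : g⁻¹ = ⟨_, nU_mem (S := -S) (by simp [hS])⟩ :=
      inv_eq_of_mul_eq_one_right (Subtype.ext (by rw [Submonoid.coe_mul, e, fromBlocks_multiply]; simp))
    rw [this]

/-- The opposite unipotent radical. -/
def radL : Subgroup Sp4 where
  carrier := {g | ∃ S : M2, Sᵀ = S ∧ g.1 = fromBlocks 1 0 S 1}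
  one_mem' := ⟨0, by simp, by simp⟩
  mul_mem' := by
    rintro g g' ⟨S, hS, e⟩ ⟨S', hS', e'⟩
    exact ⟨S + S', by simp [hS, hS'], by rw [Submonoid.coe_mul, e, e', fromBlocks_multiply]; simp⟩
  inv_mem' := by
    rintro g ⟨S, hS, e⟩
    refine ⟨-S, by simp [hS], ?_⟩
    have : g⁻¹ = ⟨_, nL_mem (S := -S) (by simp [hS])⟩ :=
      inv_eq_of_mul_eq_one_right (Subtype.ext (by rw [Submonoid.coe_mul, e, fromBlocks_multiply]; simp))
    rw [this]

theorem radU_normal (A : GL (Fin 2) F) : ∀ u ∈ radU (F := F), mH A * u * (mH A)⁻¹ ∈ radU (F := F) := by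
  rintro u ⟨S, hS, e⟩
  refine ⟨A.1 * S * A.1ᵀ, by simp [transpose_mul, hS, Matrix.mul_assoc], ?_⟩
  have hs : (A.1 * S * A.1ᵀ)ᵀ = A.1 * S * A.1ᵀ := by simp [transpose_mul, hS, Matrix.mul_assoc]
  have : mH A * u * (mH A)⁻¹ = ⟨_, nU_mem hs⟩ := by
    rw [mul_inv_eq_iff_eq_mul]
    apply Subtype.ext
    rw [Submonoid.coe_mul, Submonoid.coe_mul, e, mH_val, fromBlocks_multiply, fromBlocks_multiply]
    simp [Matrix.mul_assoc, ← transpose_mul, ← Units.val_mul]
  rw [this]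

theorem radL_normal (A : GL (Fin 2) F) : ∀ u ∈ radL (F := F), mH A * u * (mH A)⁻¹ ∈ radL (F := F) := by
  rintro u ⟨S, hS, e⟩
  refine ⟨(A⁻¹).1ᵀ * S * (A⁻¹).1, by simp [transpose_mul, hS, Matrix.mul_assoc], ?_⟩
  have hs : ((A⁻¹).1ᵀ * S * (A⁻¹).1)ᵀ = (A⁻¹).1ᵀ * S * (A⁻¹).1 := by simp [transpose_mul, hS, Matrix.mul_assoc]
  have : mH A * u * (mH A)⁻¹ = ⟨_, nL_mem hs⟩ := by
    rw [mul_inv_eq_iff_eq_mul]
    apply Subtype.ext
    rw [Submonoid.coe_mul, Submonoid.coe_mul, e, mH_val, fromBlocks_multiply, fromBlocks_multiply]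
    simp [Matrix.mul_assoc, ← Units.val_mul]
  rw [this]

/-- The two determinants of the fixed-point equations do not vanish. -/
theorem fixed_det {t d : F} (hi : Irr2 t d) (hd1 : d ≠ 1) :
    (d ^ 2 + t ^ 2 - 1) * (1 + d) - 2 * d * t ^ 2 ≠ 0 := by
  have h1 := hi 1
  have h2 := hi (-1)
  rw [show (d ^ 2 + t ^ 2 - 1) * (1 + d) - 2 * d * t ^ 2 = (d - 1) * ((1 * 1 - t * 1 + d) * (-1 * -1 - t * -1 + d)) by ring]
  exact mul_ne_zero (sub_ne_zero.2 hd1) (mul_ne_zero h1 h2)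

theorem fix_upper {t d : F} (hi : Irr2 t d) (hd1 : d ≠ 1) (h2 : (2 : F) ≠ 0) (ht : t ≠ 0) {S : M2}
    (hS : Sᵀ = S) (h : comp2 t d * S * (comp2 t d)ᵀ = S) : S = 0 := by
  have hd := hi.ne_zero
  obtain ⟨p, r, r', s, rfl⟩ : ∃ p r r' s, S = !![p, r; r', s] := ⟨_, _, _, _, Matrix.eta_fin_two S⟩
  have hr : r' = r := congrFun (congrFun hS 0) 1
  subst r'
  have e00 := congrFun (congrFun h 0) 0
  have e01 := congrFun (congrFun h 0) 1
  have e11 := congrFun (congrFun h 1) 1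
  simp [comp2, mul_apply, Fin.sum_univ_two] at e00 e01 e11
  have hs : s = 0 := by
    have := fixed_det hi hd1
    refine (mul_eq_zero.1 (show ((d ^ 2 + t ^ 2 - 1) * (1 + d) - 2 * d * t ^ 2) * s = 0 from ?_)).resolve_left this
    linear_combination (1 + d) * e00 + 2 * t * e01 + (1 + d) * e11
  subst hs
  have hp : p = 0 := by linear_combination -e00
  subst hp
  have hr : r = 0 := by
    refine (mul_eq_zero.1 (show (2 * t) * r = 0 from ?_)).resolve_left (mul_ne_zero h2 ht)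
    linear_combination e11
  subst hr
  ext i j
  fin_cases i <;> fin_cases j <;> simp

theorem fix_lower {t d : F} (hi : Irr2 t d) (hd1 : d ≠ 1) (h2 : (2 : F) ≠ 0) (ht : t ≠ 0) {S : M2}
    (hS : Sᵀ = S) (h : (comp2 t d)ᵀ * S * comp2 t d = S) : S = 0 := by
  have hd := hi.ne_zero
  obtain ⟨p, r, r', s, rfl⟩ : ∃ p r r' s, S = !![p, r; r', s] := ⟨_, _, _, _, Matrix.eta_fin_two S⟩
  have hr : r' = r := congrFun (congrFun hS 0) 1
  subst r'
  have e00 := congrFun (congrFun h 0) 0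
  have e01 := congrFun (congrFun h 0) 1
  have e11 := congrFun (congrFun h 1) 1
  simp [comp2, mul_apply, Fin.sum_univ_two] at e00 e01 e11
  have hs : s = 0 := by
    have := fixed_det hi hd1
    refine (mul_eq_zero.1 (show ((d ^ 2 + t ^ 2 - 1) * (1 + d) - 2 * d * t ^ 2) * s = 0 from ?_)).resolve_left this
    linear_combination (d ^ 2 * (1 + d)) * e00 - 2 * d * t * e01 + (1 + d) * e11
  subst hs
  have hp : p = 0 := by linear_combination -e00
  subst hp
  have hr : r = 0 := by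
    refine (mul_eq_zero.1 (show (2 * (d * t)) * r = 0 from ?_)).resolve_left
      (mul_ne_zero h2 (mul_ne_zero hd ht))
    linear_combination -e11
  subst hr
  ext i j
  fin_cases i <;> fin_cases j <;> simp

theorem radU_fix {t d : F} (hi : Irr2 t d) (hd1 : d ≠ 1) (h2 : (2 : F) ≠ 0) (ht : t ≠ 0)
    {A : GL (Fin 2) F} (hA : A.1 = comp2 t d) : ∀ u ∈ radU (F := F), Commute u (mH A) → u = 1 := by
  rintro u ⟨S, hS, e⟩ hc
  have h := congrArg Subtype.val hc.eq
  rw [Submonoid.coe_mul, Submonoid.coe_mul, e, mH_val, fromBlocks_multiply, fromBlocks_multiply] at h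
  obtain ⟨-, h12, -, -⟩ := fromBlocks_inj.1 h
  simp at h12
  have : S = 0 := by
    refine fix_upper hi hd1 h2 ht hS ?_
    rw [← hA, ← h12]
    simp [Matrix.mul_assoc, ← transpose_mul, ← Units.val_mul]
  exact Subtype.ext (by rw [e, this]; simp)

theorem radL_fix {t d : F} (hi : Irr2 t d) (hd1 : d ≠ 1) (h2 : (2 : F) ≠ 0) (ht : t ≠ 0)
    {A : GL (Fin 2) F} (hA : A.1 = comp2 t d) : ∀ u ∈ radL (F := F), Commute u (mH A) → u = 1 := by
  rintro u ⟨S, hS, e⟩ hc
  have h := congrArg Subtype.val hc.eq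
  rw [Submonoid.coe_mul, Submonoid.coe_mul, e, mH_val, fromBlocks_multiply, fromBlocks_multiply] at h
  obtain ⟨-, -, h21, -⟩ := fromBlocks_inj.1 h
  simp at h21
  have : S = 0 := by
    refine fix_lower hi hd1 h2 ht hS ?_
    rw [← hA, Matrix.mul_assoc, h21, ← Matrix.mul_assoc, ← transpose_mul]
    simp
  exact Subtype.ext (by rw [e, this]; simp)

/-- The block triangular factorisation. -/
theorem exists_ldu (g : Sp4) (hM : g.1.toBlocks₁₁.det ≠ 0) :
    ∃ v ∈ radL (F := F), ∃ u ∈ radU (F := F), ∃ M : GL (Fin 2) F, M.1 = g.1.toBlocks₁₁ ∧ g = v * mH M * u := by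
  set M := g.1.toBlocks₁₁ with hMd
  set B := g.1.toBlocks₁₂
  set C := g.1.toBlocks₂₁
  set D := g.1.toBlocks₂₂
  have hg : g.1 = fromBlocks M B C D := (fromBlocks_toBlocks g.1).symm
  have hu : IsUnit M.det := hM.isUnit
  have h1 := g.2
  rw [hg] at h1
  have h3 := SymplecticGroup.fromBlocks_mem_iff.1 h1
  have h4 := SymplecticGroup.transpose_mem h1
  rw [fromBlocks_transpose] at h4
  have h5 := (SymplecticGroup.fromBlocks_mem_iff.1 h4).1
  simp only [transpose_transpose] at h5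
  have hS1 : (C * M⁻¹)ᵀ = C * M⁻¹ := by
    rw [transpose_mul, transpose_nonsing_inv]
    calc (Mᵀ)⁻¹ * Cᵀ = (Mᵀ)⁻¹ * (Cᵀ * M) * M⁻¹ := by
          rw [Matrix.mul_assoc, Matrix.mul_nonsing_inv_cancel_right _ _ hu]
      _ = _ := by rw [← h3.1, Matrix.nonsing_inv_mul_cancel_left _ _ (by rwa [det_transpose])]
  have hS2 : (M⁻¹ * B)ᵀ = M⁻¹ * B := by
    rw [transpose_mul, transpose_nonsing_inv]
    calc Bᵀ * (Mᵀ)⁻¹ = M⁻¹ * (M * Bᵀ) * (Mᵀ)⁻¹ := by
          rw [Matrix.nonsing_inv_mul_cancel_left _ _ hu]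
      _ = _ := by
          rw [h5, ← Matrix.mul_assoc, Matrix.mul_nonsing_inv_cancel_right _ _ (by rwa [det_transpose])]
  refine ⟨⟨_, nL_mem hS1⟩, ⟨_, hS1, rfl⟩, ⟨_, nU_mem hS2⟩, ⟨_, hS2, rfl⟩, Matrix.nonsingInvUnit M hu, rfl, ?_⟩
  have hD : D = C * M⁻¹ * B + (M⁻¹)ᵀ := by
    have e1 : Mᵀ * D = Mᵀ * (C * M⁻¹ * B + (M⁻¹)ᵀ) := by
      rw [Matrix.mul_add, ← transpose_mul, Matrix.nonsing_inv_mul _ hu, transpose_one, ← Matrix.mul_assoc,
        ← Matrix.mul_assoc, h3.1, Matrix.mul_nonsing_inv_cancel_right _ _ hu, ← h3.2.2]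
      abel
    have e2 := congrArg ((Mᵀ)⁻¹ * ·) e1
    simpa [Matrix.nonsing_inv_mul_cancel_left _ _ (show IsUnit (Mᵀ).det by rwa [det_transpose])] using e2
  apply Subtype.ext
  rw [Submonoid.coe_mul, Submonoid.coe_mul, hg, mH_val]
  rw [show ((Matrix.nonsingInvUnit M hu)⁻¹).1 = M⁻¹ from rfl, show (Matrix.nonsingInvUnit M hu).1 = M from rfl]
  simp only [fromBlocks_multiply, Matrix.one_mul, Matrix.mul_one, Matrix.zero_mul, Matrix.mul_zero, add_zero, zero_add]
  refine fromBlocks_inj.2 ⟨rfl, ?_, ?_, ?_⟩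
  · rw [Matrix.mul_nonsing_inv_cancel_left _ _ hu]
  · rw [Matrix.nonsing_inv_mul_cancel_right _ _ hu]
  · rw [hD, Matrix.nonsing_inv_mul_cancel_right _ _ hu, ← Matrix.mul_assoc]

/-- A basis in which the corner has determinant `d²` and vanishing first entry. -/
theorem exists_basis_odd (g : Sp4) (hg : g ∉ Subgroup.center Sp4) {δ : F} :
    ∃ (k : Sp4) (x y z : F), (k⁻¹ * g * k).1.toBlocks₁₁ = !![0, x; y, z] ∧ -(x * y) = δ := by
  obtain ⟨f, hf⟩ := not_central_exists hg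
  set f₁ := (g⁻¹).1 *ᵥ f
  have hf1 : f₁ ≠ 0 := by
    intro h
    apply not_eigen_inv g hf 0
    have := congrArg (g.1 *ᵥ ·) h
    simpa only [f₁, mul_inv_vec, mulVec_zero, zero_smul] using this
  obtain ⟨v₀, hv1, hv2⟩ := exists_dual hf1 (not_eigen_inv g hf)
  obtain ⟨v, hvf, hva, hvn⟩ : ∃ v, om v f = 1 ∧ om (g.1 *ᵥ v) f = 0 ∧ ∀ c : F, g.1 *ᵥ v ≠ c • f := by
    by_cases h0 : ∀ c : F, g.1 *ᵥ v₀ ≠ c • f
    · exact ⟨v₀, hv1, by rw [om_inv, hv2], h0⟩
    push Not at h0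
    obtain ⟨c, hc⟩ := h0
    obtain ⟨e, e', hee, hve, -, hfe, -⟩ := exists_completion hv1
    have hef : om e f = 0 := by rw [om_neg_swap, hfe, neg_zero]
    have hef1 : om e f₁ = 0 := by
      have e1 : v₀ = c • f₁ := by
        have := congrArg ((g⁻¹).1 *ᵥ ·) hc
        simpa only [inv_mul_vec, mulVec_smul, f₁] using this
      have hc0 : c ≠ 0 := by rintro rfl; rw [zero_smul] at e1; simp [e1, om] at hv1
      rw [e1, om_smul_left] at hve
      rw [om_neg_swap, (mul_eq_zero.1 hve).resolve_left hc0, neg_zero]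
    refine ⟨v₀ + e, by rw [om_add_left, hv1, hef, add_zero],
      by rw [om_inv, om_add_left, hv2, hef1, add_zero], fun c' hc' => ?_⟩
    -- then `e` would be a multiple of `g⁻¹ f`
    rw [mulVec_add, hc] at hc'
    have e2 : g.1 *ᵥ e = (c' - c) • f := by rw [sub_smul, ← hc']; abel
    have e3 : e = (c' - c) • f₁ := by
      have := congrArg ((g⁻¹).1 *ᵥ ·) e2
      simpa only [inv_mul_vec, mulVec_smul, f₁] using this
    have e4 : v₀ = c • f₁ := by
      have := congrArg ((g⁻¹).1 *ᵥ ·) hc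
      simpa only [inv_mul_vec, mulVec_smul, f₁] using this
    have h1 : c * om f₁ f = 1 := by rw [← om_smul_left, ← e4, hv1]
    have h2 : (c' - c) * om f₁ f = 0 := by rw [← om_smul_left, ← e3, hef]
    have h3 : c' - c = 0 := (mul_eq_zero.1 h2).resolve_right (by intro h; rw [h, mul_zero] at h1; exact zero_ne_one h1)
    rw [h3, zero_smul] at e3
    rw [e3] at hee
    simp [om] at hee
  obtain ⟨a, b, hab, hva', hvb, hfa, hfb⟩ := exists_completion hvf
  let φ : (Ix → F) → F := fun y => om (g.1 *ᵥ y) f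
  let ψ : (Ix → F) → F := fun y => om (g.1 *ᵥ v) y
  have hco : ∀ y, y = om y f • v + om v y • f + om y b • a + om a y • b := by
    intro y
    obtain ⟨k, -⟩ : ∃ k : Sp4, k.1 = colMat v a f b := ⟨⟨_, colMat_mem hvf hab hva' hvb hfa hfb⟩, rfl⟩
    let k : Sp4 := ⟨_, colMat_mem hvf hab hva' hvb hfa hfb⟩
    set z := (k⁻¹).1 *ᵥ y
    have hy : y = k.1 *ᵥ z := by
      rw [mulVec_mulVec, ← Submonoid.coe_mul, mul_inv_cancel, Submonoid.coe_one, one_mulVec]
    have key : k.1 *ᵥ z = z (.inl 0) • v + z (.inl 1) • a + z (.inr 0) • f + z (.inr 1) • b := by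
      ext i
      simp [k, colMat, mulVec, dotProduct, Fintype.sum_sum_type, Fin.sum_univ_two]
      ring
    rw [hy, key]
    simp only [om_add_left, om_add_right, om_smul_left, om_smul_right, om_self, hvf, hab, hva', hvb, hfa, hfb,
      om_neg_swap f v, om_neg_swap a v, om_neg_swap b v, om_neg_swap a f, om_neg_swap b f, om_neg_swap b a]
    module
  have hφ : φ a ≠ 0 ∨ φ b ≠ 0 := by
    by_contra h
    push Not at h
    obtain ⟨h1, h2⟩ := h
    simp only [φ, om_inv] at h1 h2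
    apply not_eigen_inv g hf
      (om f₁ f)⁻¹
    have e := hco f₁
    rw [show om f₁ b = 0 by rw [om_neg_swap, h2, neg_zero], show om a f₁ = 0 from h1,
      show om v f₁ = 0 by rw [← om_inv, hva]] at e
    simp at e
    have hne : om f₁ f ≠ 0 := by
      intro h0; rw [h0, zero_smul] at e; exact hf1 e
    exfalso
    have h9 : om f₁ f₁ = 0 := om_self _
    have h10 : om v f₁ = 0 := by rw [← om_inv, hva]
    -- `f₁` is a multiple of `v`, so `g v` is a multiple of `f`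
    apply hvn (om f₁ f)⁻¹
    have := congrArg (g.1 *ᵥ ·) e
    simp only [f₁, mul_inv_vec, mulVec_smul] at this
    rw [eq_inv_smul_iff₀ hne]
    exact this.symm
  have hψ : ψ a ≠ 0 ∨ ψ b ≠ 0 := by
    by_contra h
    push Not at h
    obtain ⟨h1, h2⟩ := h
    have e := hco (g.1 *ᵥ v)
    rw [show om (g.1 *ᵥ v) b = 0 from h2, show om a (g.1 *ᵥ v) = 0 by rw [om_neg_swap]; simpa [ψ] using h1,
      hva] at e
    exact hvn _ (by simpa using e)
  obtain ⟨e, he1, he2, hev, hef⟩ : ∃ e, φ e ≠ 0 ∧ ψ e ≠ 0 ∧ om v e = 0 ∧ om f e = 0 := by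
    have hadd : φ (a + b) = φ a + φ b ∧ ψ (a + b) = ψ a + ψ b := by
      simp [φ, ψ, mulVec_add, om_add_left, om_add_right]
    by_cases h1 : φ a ≠ 0 ∧ ψ a ≠ 0
    · exact ⟨a, h1.1, h1.2, hva', hfa⟩
    by_cases h2 : φ b ≠ 0 ∧ ψ b ≠ 0
    · exact ⟨b, h2.1, h2.2, hvb, hfb⟩
    refine ⟨a + b, ?_, ?_, by rw [om_add_right, hva', hvb, add_zero], by rw [om_add_right, hfa, hfb, add_zero]⟩ <;>
      simp only [hadd] <;> grind
  obtain ⟨w, hw, hvw, hfw⟩ : ∃ w, om e w = 1 ∧ om v w = 0 ∧ om f w = 0 := by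
    have e0 := hco e
    rw [show om e f = 0 by rw [om_neg_swap, hef, neg_zero], hev] at e0
    simp at e0
    by_cases hb : om e b = 0
    · have ha : om a e ≠ 0 := by
        intro ha
        rw [ha, hb] at e0
        simp at e0
        exact he1 (by simp [φ, e0, om])
      exact ⟨-(om a e)⁻¹ • a, by rw [om_smul_right, om_neg_swap e a]; field_simp,
        by rw [om_smul_right, hva', mul_zero], by rw [om_smul_right, hfa, mul_zero]⟩
    · exact ⟨(om e b)⁻¹ • b, by rw [om_smul_right, inv_mul_cancel₀ hb],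
        by rw [om_smul_right, hvb, mul_zero], by rw [om_smul_right, hfb, mul_zero]⟩
  set r := (-δ / φ e - ψ w) / ψ e
  obtain ⟨k, hk⟩ := exists_basis_conj g (v := v) (e := e) (f := f) (e' := w + r • e) hvf
    (by rw [om_add_right, om_smul_right, hw, om_self, mul_zero, add_zero]) hev
    (by rw [om_add_right, om_smul_right, hvw, hev, mul_zero, add_zero]) hef
    (by rw [om_add_right, om_smul_right, hfw, hef, mul_zero, add_zero])
  refine ⟨k, φ e, ψ (w + r • e), om (g.1 *ᵥ e) (w + r • e), ?_, ?_⟩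
  · ext i j
    have := (hk (.inl i) j).1
    fin_cases i <;> fin_cases j <;> simp [toBlocks₁₁, φ, ψ] at this ⊢ <;> simp [this, hva]
  · simp only [ψ, om_add_right, om_smul_right]
    show -(φ e * (ψ w + r * ψ e)) = δ
    rw [show r * ψ e = -δ / φ e - ψ w from div_mul_cancel₀ _ he2]
    field_simp
    ring

/-- The covering class in odd characteristic. -/
theorem exists_cover_odd [Fintype F] (p : ℕ) [Fact p.Prime] [CharP F p] (h2 : (2 : F) ≠ 0) :
    ∃ x : Sp4, ¬ p ∣ orderOf x ∧ ∀ g : Sp4, g ∉ Subgroup.center Sp4 →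
      ∃ g' : Sp4, (g' = g ∨ g'.1 = -g.1) ∧ Prod2 x g' := by
  classical
  obtain ⟨d, hd0, hd1, hsq⟩ : ∃ d : F, d ≠ 0 ∧ d ≠ 1 ∧ ∃ x : F, x ≠ 0 ∧ x * x ≠ d := by
    refine ⟨-1, by simp, ?_, ?_⟩
    · intro h; apply h2; linear_combination -h
    · refine ⟨1, one_ne_zero, ?_⟩
      intro h; apply h2; linear_combination h
  obtain ⟨t, ht, hi⟩ := exists_irr2 hd0 hsq
  have hAu : IsUnit (comp2 t d).det := by rw [det_comp2]; exact hd0.isUnit
  set A : GL (Fin 2) F := Matrix.nonsingInvUnit _ hAu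
  have hA : A.1 = comp2 t d := rfl
  refine ⟨mH A, fun h => order_comp2 hi p A hA ?_, fun g hg => ?_⟩
  · rwa [orderOf_injective mH (fun B B' e => Units.ext (by
      have := congrArg Subtype.val e
      simp only [mH_val] at this
      exact (fromBlocks_inj.1 this).1))] at h
  obtain ⟨k, x, y, z, hM, hxy⟩ := exists_basis_odd g hg (δ := d ^ 2)
  -- choose the sign
  obtain ⟨g', hg', x', y', z', hM', hxy', hz'⟩ : ∃ g' : Sp4, (g' = g ∨ g'.1 = -g.1) ∧ ∃ x y z : F,
      (k⁻¹ * g' * k).1.toBlocks₁₁ = !![0, x; y, z] ∧ -(x * y) = d ^ 2 ∧ z ≠ 2 * d := by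
    by_cases hz : z = 2 * d
    · refine ⟨⟨-g.1, SymplecticGroup.neg_mem g.2⟩, Or.inr rfl, -x, -y, -z, ?_, by rw [← hxy]; ring, ?_⟩
      · ext i j
        have := congrFun (congrFun hM i) j
        simp [toBlocks₁₁] at this ⊢
        rw [this]
        fin_cases i <;> fin_cases j <;> simp
      · intro e
        have : (2 : F) * (2 * d) = 0 := by linear_combination -e - hz
        exact mul_ne_zero h2 (mul_ne_zero h2 hd0) this
    · exact ⟨g, Or.inl rfl, x, y, z, hM, hxy, hz⟩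
  refine ⟨g', hg', Prod2.of_conj (k := k) ?_⟩
  obtain ⟨v, hv, u, hu, M, hMv, e⟩ := exists_ldu (k⁻¹ * g' * k) (by
    rw [hM', det_fin_two_of]
    intro h
    exact pow_ne_zero 2 hd0 (by linear_combination h - hxy'))
  obtain ⟨B, C, hBC, hBd, hBt, hCd, hCt⟩ := exists_factor hi hxy' hz' (fun _ => ht)
  have hconj : ∀ B : M2, B.det = d → B.trace = t → ∃ P : GL (Fin 2) F, (P * A * P⁻¹).1 = B := by
    intro B hd ht
    have hne := hi.entry_ne ht hd
    obtain ⟨e1, e2⟩ := exists_conj_comp hne ht hd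
    exact ⟨Matrix.nonsingInvUnit _ (by rw [e2]; exact hne.isUnit), e1.symm⟩
  obtain ⟨P, hP⟩ := hconj B hBd hBt
  obtain ⟨Q, hQ⟩ := hconj C hCd hCt
  have hMe : M = (P * A * P⁻¹) * (Q * A * Q⁻¹) := Units.ext (by rw [Units.val_mul, hP, hQ, hMv, hM', hBC])
  rw [e, hMe]
  simp only [map_mul, map_inv]
  exact prod2_of_ldu (radU (F := F)) (radL (F := F)) (radU_normal A) (radU_fix hi hd1 h2 ht hA)
    (radL_normal A) (radL_fix hi hd1 h2 ht hA)
    (fun w hw => by simpa [map_inv] using radL_normal P⁻¹ w hw)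
    (fun w hw => by simpa [map_inv] using radU_normal Q⁻¹ w hw) hv hu

end Cfsg.Agent.PSp4Cover
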